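import Cfsg.Agent.Core.ThreeTwenty.Model
import Cfsg.Agent.KnownA.U34.PrimeGraph

/-!
# The centralizer of a transvection in `SU₃(4)`
-/

set_option autoImplicit false
set_option maxRecDepth 100000
set_option linter.unusedSimpArgs false

namespace Cfsg.Agent.Core.ThreeTwenty

open Cfsg.Agent.KnownA.U34 (B4 shift e0 Coord exists_coord add_pow_four card_psu34)

/-- Elements of the field of sixteen elements as bit masks. -/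
abbrev N16 := Fin 16

/-- Matrices of bit masks. -/
structure M9 where
  a : N16
  b : N16
  c : N16
  d : N16
  e : N16
  f : N16
  g : N16
  h : N16
  i : N16
deriving DecidableEq

/-- The multiplication table. -/
def mulTbl : List ℕ := [0, 0, 0, 0, 0, 0, 0, 0, 0, 0, 0, 0, 0, 0, 0, 0, 0, 1, 2, 3, 4, 5, 6, 7, 8, 9, 10, 11, 12, 13, 14, 15, 0, 2, 4, 6, 8, 10, 12, 14, 3, 1, 7, 5, 11, 9, 15, 13, 0, 3, 6, 5, 12, 15, 10, 9, 11, 8, 13, 14, 7, 4, 1, 2, 0, 4, 8, 12, 3, 7, 11, 15, 6, 2, 14, 10, 5, 1, 13, 9, 0, 5, 10, 15, 7, 2, 13, 8, 14, 11, 4, 1, 9, 12, 3, 6, 0, 6, 12, 10, 11, 13, 7, 1, 5, 3, 9, 15, 14, 8, 2, 4, 0, 7, 14, 9, 15, 8, 1, 6, 13, 10, 3, 4, 2, 5, 12, 11, 0, 8, 3, 11, 6, 14, 5, 13, 12, 4, 15, 7, 10, 2, 9, 1, 0, 9, 1, 8, 2, 11, 3, 10, 4, 13, 5, 12, 6, 15, 7, 14, 0, 10, 7, 13, 14, 4, 9, 3, 15, 5, 8, 2, 1, 11, 6, 12, 0,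 11, 5, 14, 10, 1, 15, 4, 7, 12, 2, 9, 13, 6, 8, 3, 0, 12, 11, 7, 5, 9, 14, 2, 10, 6, 1, 13, 15, 3, 4, 8, 0, 13, 9, 4, 1, 12, 8, 5, 2, 15, 11, 6, 3, 14, 10, 7, 0, 14, 15, 1, 13, 3, 2, 12, 9, 7, 6, 8, 4, 10, 11, 5, 0, 15, 13, 2, 9, 6, 4, 11, 1, 14, 12, 3, 8, 7, 5, 10]

/-- The powers of the primitive element. -/
def expTbl : List ℕ := [1, 2, 4, 8, 3, 6, 12, 11, 5, 10, 7, 14, 15, 13, 9]

/-- The powers of the torus element. -/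
def mA : List M9 := [⟨1, 0, 0, 0, 1, 0, 0, 0, 1⟩, ⟨8, 0, 0, 0, 8, 0, 0, 0, 10⟩, ⟨12, 0, 0, 0, 12, 0, 0, 0, 8⟩, ⟨10, 0, 0, 0, 10, 0, 0, 0, 15⟩, ⟨15, 0, 0, 0, 15, 0, 0, 0, 12⟩, ⟨1, 0, 0, 0, 1, 0, 0, 0, 1⟩]

/-- The conjugates of the unipotent element. -/
def mX : List M9 := [⟨5, 4, 1, 4, 5, 1, 1, 1, 1⟩, ⟨5, 4, 10, 4, 5, 10, 12, 12, 1⟩, ⟨5, 4, 8, 4, 5, 8, 15, 15, 1⟩, ⟨5, 4, 15, 4, 5, 15, 8, 8, 1⟩, ⟨5, 4, 12, 4, 5, 12, 10, 10, 1⟩]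

/-- An involution. -/
def mS : M9 := ⟨0, 0, 1, 0, 1, 0, 1, 0, 0⟩

/-- The central involutions. -/
def mZ1 : M9 := ⟨7, 6, 0, 6, 7, 0, 0, 0, 1⟩
/-- The central involutions. -/
def mZ2 : M9 := ⟨6, 7, 0, 7, 6, 0, 0, 0, 1⟩

/-- The transvection. -/
def mT : M9 := ⟨0, 1, 0, 1, 0, 0, 0, 0, 1⟩

/-- The conjugates of the transvection. -/
def mW : List M9 := [⟨0, 1, 0, 1, 0, 0, 0, 0, 1⟩,
  ⟨1, 0, 0, 0, 0, 1, 0, 1, 0⟩,
  ⟨1, 0, 0, 0, 0, 10, 0, 12, 0⟩,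
  ⟨6, 2, 0, 3, 6, 0, 0, 0, 1⟩,
  ⟨1, 0, 0, 0, 0, 8, 0, 15, 0⟩,
  ⟨0, 9, 7, 14, 6, 12, 7, 10, 7⟩,
  ⟨0, 12, 0, 10, 0, 0, 0, 0, 1⟩,
  ⟨0, 0, 1, 0, 1, 0, 1, 0, 0⟩,
  ⟨1, 0, 0, 0, 6, 3, 0, 2, 6⟩,
  ⟨1, 0, 0, 0, 0, 15, 0, 8, 0⟩,
  ⟨7, 13, 12, 11, 0, 5, 10, 4, 6⟩,
  ⟨0, 15, 0, 8, 0, 0, 0, 0, 1⟩,
  ⟨0, 9, 3, 14, 6, 1, 2, 1, 7⟩,
  ⟨0, 0, 10, 0, 1, 0, 12, 0, 0⟩,
  ⟨7, 10, 7, 12, 6, 14, 7, 9, 0⟩,
  ⟨7, 0, 6, 0, 1, 0, 6, 0, 7⟩,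
  ⟨6, 3, 0, 2, 6, 0, 0, 0, 1⟩,
  ⟨1, 0, 0, 0, 6, 13, 0, 11, 6⟩,
  ⟨6, 10, 6, 12, 7, 2, 6, 3, 0⟩,
  ⟨1, 0, 0, 0, 0, 12, 0, 10, 0⟩,
  ⟨0, 13, 4, 11, 7, 10, 5, 12, 6⟩,
  ⟨0, 8, 0, 15, 0, 0, 0, 0, 1⟩,
  ⟨7, 13, 1, 11, 0, 4, 1, 5, 6⟩,
  ⟨0, 0, 8, 0, 1, 0, 15, 0, 0⟩,
  ⟨6, 4, 10, 5, 0, 11, 12, 13, 7⟩,
  ⟨7, 7, 1, 7, 0, 6, 1, 6, 6⟩,
  ⟨0, 9, 13, 14, 6, 10, 11, 12, 7⟩,
  ⟨0, 14, 2, 9, 6, 1, 3, 1, 7⟩,
  ⟨7, 1, 2, 1, 6, 14, 3, 9, 0⟩,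
  ⟨6, 14, 12, 9, 0, 7, 10, 7, 7⟩,
  ⟨0, 0, 12, 0, 1, 0, 10, 0, 0⟩,
  ⟨7, 10, 3, 12, 6, 6, 2, 6, 0⟩,
  ⟨6, 10, 9, 12, 7, 7, 14, 7, 0⟩,
  ⟨7, 0, 9, 0, 1, 0, 14, 0, 7⟩,
  ⟨0, 10, 0, 12, 0, 0, 0, 0, 1⟩,
  ⟨1, 0, 0, 0, 6, 2, 0, 3, 6⟩,
  ⟨1, 0, 0, 0, 6, 11, 0, 13, 6⟩,
  ⟨0, 5, 2, 4, 6, 8, 3, 15, 7⟩,
  ⟨6, 11, 0, 13, 6, 0, 0, 0, 1⟩,
  ⟨6, 0, 3, 0, 1, 0, 2, 0, 6⟩,
  ⟨0, 3, 6, 2, 7, 12, 6, 10, 6⟩,
  ⟨6, 9, 10, 14, 0, 7, 12, 7, 7⟩,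
  ⟨0, 13, 14, 11, 7, 8, 9, 15, 6⟩,
  ⟨0, 0, 15, 0, 1, 0, 8, 0, 0⟩,
  ⟨6, 12, 5, 10, 7, 11, 4, 13, 0⟩,
  ⟨0, 7, 6, 7, 7, 1, 6, 1, 6⟩,
  ⟨7, 13, 10, 11, 0, 14, 12, 9, 6⟩,
  ⟨6, 5, 1, 4, 0, 11, 1, 13, 7⟩,
  ⟨0, 11, 5, 13, 7, 12, 4, 10, 6⟩,
  ⟨6, 4, 8, 5, 0, 2, 15, 3, 7⟩,
  ⟨6, 10, 5, 12, 7, 3, 4, 2, 0⟩,
  ⟨7, 7, 10, 7, 0, 9, 12, 14, 6⟩,
  ⟨6, 6, 1, 6, 0, 7, 1, 7, 7⟩,
  ⟨0, 9, 11, 14, 6, 8, 13, 15, 7⟩,
  ⟨7, 13, 15, 11, 0, 9, 8, 14, 6⟩,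
  ⟨7, 12, 11, 10, 6, 14, 13, 9, 0⟩,
  ⟨0, 14, 7, 9, 6, 10, 7, 12, 7⟩,
  ⟨6, 14, 1, 9, 0, 3, 1, 2, 7⟩,
  ⟨7, 1, 3, 1, 6, 9, 2, 14, 0⟩,
  ⟨7, 1, 7, 1, 6, 6, 7, 6, 0⟩,
  ⟨6, 14, 15, 9, 0, 2, 8, 3, 7⟩,
  ⟨7, 10, 13, 12, 6, 9, 11, 14, 0⟩,
  ⟨6, 0, 2, 0, 1, 0, 3, 0, 6⟩,
  ⟨0, 6, 2, 6, 6, 12, 3, 10, 7⟩,
  ⟨6, 12, 14, 10, 7, 7, 9, 7, 0⟩,
  ⟨0, 7, 14, 7, 7, 12, 9, 10, 6⟩,
  ⟨7, 0, 5, 0, 1, 0, 4, 0, 7⟩,
  ⟨0, 2, 14, 3, 7, 1, 9, 1, 6⟩,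
  ⟨7, 0, 14, 0, 1, 0, 9, 0, 7⟩,
  ⟨1, 0, 0, 0, 7, 6, 0, 6, 7⟩,
  ⟨1, 0, 0, 0, 6, 7, 0, 7, 6⟩,
  ⟨6, 5, 15, 4, 0, 3, 8, 2, 7⟩,
  ⟨6, 13, 0, 11, 6, 0, 0, 0, 1⟩,
  ⟨0, 5, 7, 4, 6, 15, 7, 8, 7⟩,
  ⟨6, 0, 13, 0, 1, 0, 11, 0, 6⟩,
  ⟨7, 15, 3, 8, 6, 4, 2, 5, 0⟩,
  ⟨0, 6, 7, 6, 6, 1, 7, 1, 7⟩,
  ⟨7, 12, 2, 10, 6, 6, 3, 6, 0⟩,
  ⟨0, 3, 9, 2, 7, 1, 14, 1, 6⟩,
  ⟨7, 3, 10, 2, 0, 6, 12, 6, 6⟩,
  ⟨6, 9, 8, 14, 0, 3, 15, 2, 7⟩,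
  ⟨7, 7, 12, 7, 0, 14, 10, 9, 6⟩,
  ⟨0, 13, 6, 11, 7, 15, 6, 8, 6⟩,
  ⟨6, 9, 12, 14, 0, 11, 10, 13, 7⟩,
  ⟨6, 15, 9, 8, 7, 11, 14, 13, 0⟩,
  ⟨7, 11, 10, 13, 0, 4, 12, 5, 6⟩,
  ⟨6, 12, 4, 10, 7, 2, 5, 3, 0⟩,
  ⟨6, 10, 4, 12, 7, 13, 5, 11, 0⟩,
  ⟨0, 7, 9, 7, 7, 10, 14, 12, 6⟩,
  ⟨6, 1, 6, 1, 7, 7, 6, 7, 0⟩,
  ⟨7, 13, 8, 11, 0, 6, 15, 6, 6⟩,
  ⟨0, 11, 4, 13, 7, 1, 5, 1, 6⟩,
  ⟨6, 5, 10, 4, 0, 2, 12, 3, 7⟩,
  ⟨7, 7, 8, 7, 0, 5, 15, 4, 6⟩,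
  ⟨6, 4, 15, 5, 0, 7, 8, 7, 7⟩,
  ⟨7, 3, 15, 2, 0, 5, 8, 4, 6⟩,
  ⟨0, 5, 11, 4, 6, 10, 13, 12, 7⟩,
  ⟨0, 2, 4, 3, 7, 12, 5, 10, 6⟩,
  ⟨6, 6, 10, 6, 0, 3, 12, 2, 7⟩,
  ⟨0, 9, 2, 14, 6, 15, 3, 8, 7⟩,
  ⟨6, 9, 15, 14, 0, 13, 8, 11, 7⟩,
  ⟨7, 15, 13, 8, 6, 14, 11, 9, 0⟩,
  ⟨6, 14, 10, 9, 0, 13, 12, 11, 7⟩,
  ⟨6, 14, 8, 9, 0, 11, 15, 13, 7⟩,
  ⟨0, 14, 3, 9, 6, 8, 2, 15, 7⟩,
  ⟨7, 12, 7, 10, 6, 9, 7, 14, 0⟩,
  ⟨6, 9, 1, 14, 0, 2, 1, 3, 7⟩,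
  ⟨7, 2, 1, 3, 0, 9, 1, 14, 6⟩,
  ⟨7, 1, 13, 1, 6, 5, 11, 4, 0⟩,
  ⟨7, 4, 0, 5, 7, 0, 0, 0, 1⟩,
  ⟨6, 1, 14, 1, 7, 2, 9, 3, 0⟩,
  ⟨7, 3, 8, 2, 0, 9, 15, 14, 6⟩,
  ⟨7, 10, 11, 12, 6, 5, 13, 4, 0⟩,
  ⟨0, 14, 11, 9, 6, 12, 13, 10, 7⟩,
  ⟨6, 0, 7, 0, 1, 0, 7, 0, 6⟩,
  ⟨6, 12, 6, 10, 7, 3, 6, 2, 0⟩,
  ⟨7, 3, 12, 2, 0, 4, 10, 5, 6⟩,
  ⟨7, 0, 4, 0, 1, 0, 5, 0, 7⟩,
  ⟨0, 2, 6, 3, 7, 10, 6, 12, 6⟩,
  ⟨1, 0, 0, 0, 7, 9, 0, 14, 7⟩,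
  ⟨6, 1, 9, 1, 7, 3, 14, 2, 0⟩,
  ⟨7, 6, 0, 6, 7, 0, 0, 0, 1⟩,
  ⟨7, 14, 0, 9, 7, 0, 0, 0, 1⟩,
  ⟨6, 7, 0, 7, 6, 0, 0, 0, 1⟩,
  ⟨6, 5, 12, 4, 0, 13, 10, 11, 7⟩,
  ⟨6, 0, 11, 0, 1, 0, 13, 0, 6⟩,
  ⟨7, 2, 8, 3, 0, 4, 15, 5, 6⟩,
  ⟨0, 5, 3, 4, 6, 12, 2, 10, 7⟩,
  ⟨7, 8, 7, 15, 6, 4, 7, 5, 0⟩,
  ⟨0, 6, 3, 6, 6, 10, 2, 12, 7⟩,
  ⟨0, 3, 5, 2, 7, 10, 4, 12, 6⟩,
  ⟨7, 2, 12, 3, 0, 6, 10, 6, 6⟩,
  ⟨6, 6, 12, 6, 0, 2, 10, 3, 7⟩,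
  ⟨7, 2, 15, 3, 0, 14, 8, 9, 6⟩,
  ⟨6, 10, 14, 12, 7, 11, 9, 13, 0⟩,
  ⟨0, 13, 9, 11, 7, 12, 14, 10, 6⟩,
  ⟨6, 1, 5, 1, 7, 13, 4, 11, 0⟩,
  ⟨6, 8, 6, 15, 7, 11, 6, 13, 0⟩,
  ⟨7, 11, 8, 13, 0, 14, 15, 9, 6⟩,
  ⟨6, 15, 5, 8, 7, 2, 4, 3, 0⟩,
  ⟨1, 0, 0, 0, 7, 4, 0, 5, 7⟩,
  ⟨0, 7, 5, 7, 7, 8, 4, 15, 6⟩,
  ⟨6, 12, 9, 10, 7, 13, 14, 11, 0⟩,
  ⟨7, 5, 0, 4, 7, 0, 0, 0, 1⟩,
  ⟨6, 1, 4, 1, 7, 11, 5, 13, 0⟩,
  ⟨6, 6, 15, 6, 0, 11, 8, 13, 7⟩,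
  ⟨0, 11, 14, 13, 7, 10, 9, 12, 6⟩,
  ⟨6, 5, 8, 4, 0, 7, 15, 7, 7⟩,
  ⟨7, 7, 15, 7, 0, 4, 8, 5, 6⟩,
  ⟨0, 4, 11, 5, 6, 1, 13, 1, 7⟩,
  ⟨6, 4, 12, 5, 0, 3, 10, 2, 7⟩,
  ⟨0, 3, 4, 2, 7, 8, 5, 15, 6⟩,
  ⟨7, 12, 3, 10, 6, 5, 2, 4, 0⟩,
  ⟨7, 12, 13, 10, 6, 4, 11, 5, 0⟩,
  ⟨6, 6, 8, 6, 0, 13, 15, 11, 7⟩,
  ⟨7, 2, 10, 3, 0, 5, 12, 4, 6⟩,
  ⟨7, 8, 3, 15, 6, 14, 2, 9, 0⟩,
  ⟨7, 15, 11, 8, 6, 6, 13, 6, 0⟩,
  ⟨1, 0, 0, 0, 7, 5, 0, 4, 7⟩,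
  ⟨0, 11, 9, 13, 7, 15, 14, 8, 6⟩,
  ⟨7, 11, 12, 13, 0, 9, 10, 14, 6⟩,
  ⟨0, 14, 13, 9, 6, 15, 11, 8, 7⟩,
  ⟨7, 15, 2, 8, 6, 9, 3, 14, 0⟩,
  ⟨7, 3, 1, 2, 0, 14, 1, 9, 6⟩,
  ⟨1, 0, 0, 0, 7, 14, 0, 9, 7⟩,
  ⟨7, 1, 11, 1, 6, 4, 13, 5, 0⟩,
  ⟨6, 8, 4, 15, 7, 3, 5, 2, 0⟩,
  ⟨7, 10, 2, 12, 6, 4, 3, 5, 0⟩,
  ⟨0, 4, 13, 5, 6, 12, 11, 10, 7⟩,
  ⟨7, 9, 0, 14, 7, 0, 0, 0, 1⟩,
  ⟨0, 2, 9, 3, 7, 8, 14, 15, 6⟩,
  ⟨0, 4, 3, 5, 6, 15, 2, 8, 7⟩,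
  ⟨0, 5, 13, 4, 6, 1, 11, 1, 7⟩,
  ⟨0, 6, 13, 6, 6, 8, 11, 15, 7⟩,
  ⟨7, 8, 2, 15, 6, 5, 3, 4, 0⟩,
  ⟨0, 13, 5, 11, 7, 1, 4, 1, 6⟩,
  ⟨7, 11, 15, 13, 0, 6, 8, 6, 6⟩,
  ⟨6, 8, 9, 15, 7, 2, 14, 3, 0⟩,
  ⟨6, 15, 4, 8, 7, 7, 5, 7, 0⟩,
  ⟨7, 8, 11, 15, 6, 9, 13, 14, 0⟩,
  ⟨0, 7, 4, 7, 7, 15, 5, 8, 6⟩,
  ⟨0, 11, 6, 13, 7, 8, 6, 15, 6⟩,
  ⟨6, 8, 5, 15, 7, 7, 4, 7, 0⟩,
  ⟨0, 4, 2, 5, 6, 10, 3, 12, 7⟩,
  ⟨6, 4, 1, 5, 0, 13, 1, 11, 7⟩,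
  ⟨0, 3, 14, 2, 7, 15, 9, 8, 6⟩,
  ⟨0, 2, 5, 3, 7, 15, 4, 8, 6⟩,
  ⟨7, 8, 13, 15, 6, 6, 11, 6, 0⟩,
  ⟨6, 8, 14, 15, 7, 13, 9, 11, 0⟩,
  ⟨7, 11, 1, 13, 0, 5, 1, 4, 6⟩,
  ⟨7, 15, 7, 8, 6, 5, 7, 4, 0⟩,
  ⟨6, 15, 14, 8, 7, 3, 9, 2, 0⟩,
  ⟨0, 6, 11, 6, 6, 15, 13, 8, 7⟩,
  ⟨6, 15, 6, 8, 7, 13, 6, 11, 0⟩,
  ⟨0, 4, 7, 5, 6, 8, 7, 15, 7⟩]

/-- How each conjugate arises from an earlier one. -/
def steps : List (ℕ × ℕ) := [(0, 0), (2, 0), (0, 1), (1, 1), (0, 2), (1, 2), (2, 2), (1, 3), (2, 3), (0, 4), (1, 4), (2, 4), (0, 5), (1, 5), (2, 5), (1, 6), (1, 7), (0, 8), (1, 8), (0, 9), (1, 9), (2, 9), (0, 10), (1, 10), (2, 10), (1, 11), (0, 12), (1, 12), (2, 12), (1, 13), (2, 13), (0, 14), (1, 14), (0, 15), (1, 15), (2, 16), (0, 17), (1, 17), (2, 17), (1, 18), (2, 18), (1, 19), (0, 20), (1, 20), (2, 20), (1, 21), (0, 22), (2, 22), (1,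 23), (0, 24), (1, 24), (0, 25), (2, 25), (0, 26), (1, 26), (2, 26), (0, 27), (1, 27), (2, 27), (0, 28), (1, 28), (0, 31), (1, 31), (2, 31), (1, 32), (2, 32), (0, 33), (1, 33), (2, 33), (1, 34), (0, 35), (1, 36), (2, 36), (0, 37), (1, 37), (2, 37), (1, 38), (1, 39), (0, 40), (1, 40), (0, 41), (2, 41), (0, 42), (1, 42), (2, 42), (1, 43), (0, 44), (1, 44), (0, 45), (2, 45), (0, 46), (1, 46), (0, 47), (1, 47), (0, 49), (2, 49), (1, 50), (2, 50), (0, 52), (0, 53), (1, 53), (2, 53), (1, 54), (2, 54), (0, 56), (2, 56), (1, 57), (2, 57), (0, 58), (1, 59), (1, 60), (2, 60), (0, 61), (2, 61), (0, 62), (1, 62), (1, 63), (0, 66), (0, 67), (1, 67), (2, 67), (2, 69), (1, 70), (2, 70), (0, 71), (1, 71), (2, 71), (0, 73), (2, 73), (0, 76), (0, 78), (1, 79), (2, 79), (2, 80), (1, 81), (0, 82), (1, 82), (2, 82), (1, 83), (0, 84), (1, 84),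 (0, 88), (1, 88), (1, 89), (1, 90), (2, 90), (0, 91), (0, 92), (0, 93), (1, 93), (0, 94), (1, 95), (1, 96), (2, 96), (0, 98), (1, 98), (2, 99), (0, 101), (1, 101), (1, 102), (2, 102), (1, 103), (2, 104), (2, 106), (1, 107), (0, 108), (1, 111), (0, 112), (2, 112), (1, 114), (0, 118), (1, 125), (0, 127), (1, 128), (1, 133), (0, 135), (1, 136), (0, 137), (0, 139), (1, 140), (0, 141), (1, 144), (1, 145), (1, 147), (1, 148), (0, 151), (1, 151), (0, 156), (1, 158), (0, 160), (0, 162), (2, 170), (0, 173), (2, 181), (0, 183)]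

/-- The codes in the order of their keys. -/
def order : List ℕ := [0, 64, 192, 128, 256, 48, 144, 208, 288, 96, 32, 16, 112, 224, 240, 272, 176, 80, 160, 304, 40, 276, 24, 111, 8, 242, 56, 129, 308, 79, 145, 226, 177, 260, 95, 161, 292, 210, 194, 127, 222, 183, 206, 124, 275, 167, 307, 92, 254, 259, 76, 38, 238, 22, 291, 6, 135, 54, 151, 108, 204, 166, 220, 115, 263, 182, 295, 83, 236, 279, 67, 62, 252, 14, 311, 30, 150, 46, 134, 99, 69, 265, 186, 101, 297, 235, 170, 251, 138, 29, 117, 45, 281, 154, 85, 203, 313, 61, 219, 13, 74, 285, 187, 106, 317, 249, 171, 233, 139, 21, 122, 37, 269, 155, 90, 217, 301, 53, 201, 5, 89, 282, 189, 121, 314, 229, 173, 245, 141, 27, 105, 43, 266, 157, 73, 197, 298, 59, 213, 11, 215, 172, 199, 118, 270, 188, 302, 86, 247, 286, 70, 35, 231, 19, 318, 3, 156, 51, 140, 102, 34, 273, 18, 100,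 2, 255, 50, 136, 305, 68, 152, 239, 184, 257, 84, 168, 289, 223, 207, 116, 75, 277, 169, 107, 309, 237, 185, 253, 153, 26, 123, 42, 261, 137, 91, 205, 293, 58, 221, 10, 36, 274, 20, 104, 4, 241, 52, 143, 306, 72, 159, 225, 191, 258, 88, 175, 290, 209, 193, 120, 195, 190, 211, 103, 278, 174, 310, 71, 227, 262, 87, 44, 243, 28, 294, 12, 142, 60, 158, 119, 47, 280, 31, 97, 15, 244, 63, 130, 312, 65, 146, 228, 178, 264, 81, 162, 296, 212, 196, 113, 198, 163, 214, 110, 284, 179, 316, 78, 230, 268, 94, 55, 246, 7, 300, 23, 147, 39, 131, 126, 77, 283, 181, 109, 315, 234, 165, 250, 133, 9, 125, 57, 267, 149, 93, 202, 299, 41, 218, 25, 33, 287, 17, 98, 1, 248, 49, 132, 319, 66, 148, 232, 180, 271, 82, 164, 303, 216, 200, 114]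

/-- The bit vector of a mask. -/
def bitsOf (n : N16) : B4 := fun k => ((n.val / 2 ^ k.val % 2 : ℕ) : ZMod 2)

/-- Sum. -/
def addN (a b : N16) : N16 := Fin.ofNat 16 (Nat.xor a.val b.val)

/-- Product. -/
def mulN (a b : N16) : N16 := Fin.ofNat 16 (mulTbl.getD (16 * a.val + b.val) 0)

/-- Conjugation. -/
def frN (a : N16) : N16 := mulN (mulN a a) (mulN a a)

/-- Product of matrices. -/
def mmul : M9 → M9 → M9
  | ⟨a, b, c, d, e, f, g, h, i⟩, ⟨p, q, r, s, t, u, v, w, x⟩ =>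
    ⟨addN (addN (mulN a p) (mulN b s)) (mulN c v), addN (addN (mulN a q) (mulN b t)) (mulN c w),
      addN (addN (mulN a r) (mulN b u)) (mulN c x), addN (addN (mulN d p) (mulN e s)) (mulN f v),
      addN (addN (mulN d q) (mulN e t)) (mulN f w), addN (addN (mulN d r) (mulN e u)) (mulN f x),
      addN (addN (mulN g p) (mulN h s)) (mulN i v), addN (addN (mulN g q) (mulN h t)) (mulN i w),
      addN (addN (mulN g r) (mulN h u)) (mulN i x)⟩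

/-- The unit matrix. -/
def one9 : M9 := ⟨1, 0, 0, 0, 1, 0, 0, 0, 1⟩

/-- The inner product of columns. -/
def dot3 (a b c p q r : N16) : N16 := addN (addN (mulN a (frN p)) (mulN b (frN q))) (mulN c (frN r))

/-- The conditions for membership. -/
def ok : M9 → Prop
  | ⟨a, b, c, d, e, f, g, h, i⟩ =>
    dot3 a d g a d g = 1 ∧ dot3 a d g b e h = 0 ∧ dot3 a d g c f i = 0 ∧
    dot3 b e h a d g = 0 ∧ dot3 b e h b e h = 1 ∧ dot3 b e h c f i = 0 ∧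
    dot3 c f i a d g = 0 ∧ dot3 c f i b e h = 0 ∧ dot3 c f i c f i = 1 ∧
    addN (addN (addN (addN (addN (mulN (mulN a e) i) (mulN (mulN a f) h)) (mulN (mulN b d) i))
      (mulN (mulN b f) g)) (mulN (mulN c d) h)) (mulN (mulN c e) g) = 1

instance (M : M9) : Decidable (ok M) := by cases M; unfold ok; infer_instance

theorem bitsOf_add : ∀ a b : N16, bitsOf (addN a b) = bitsOf a + bitsOf b := by decide +kernel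

theorem bitsOf_zero : bitsOf 0 = 0 := by decide +kernel

theorem bitsOf_one : bitsOf 1 = shift^[0] e0 := by decide +kernel

theorem bitsOf_inj : ∀ a b : N16, bitsOf a = bitsOf b → a = b := by decide +kernel

theorem mul_zero_cases : ∀ a : N16, mulN 0 a = 0 ∧ mulN a 0 = 0 := by decide +kernel

theorem exp_cases : ∀ a : N16, a = 0 ∨ ∃ i : Fin 15, Fin.ofNat 16 (expTbl.getD i.val 0) = a ∧
    bitsOf a = shift^[i.val] e0 := by decide +kernel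

theorem mul_exp : ∀ i j : Fin 15, bitsOf (mulN (Fin.ofNat 16 (expTbl.getD i.val 0)) (Fin.ofNat 16 (expTbl.getD j.val 0))) =
    shift^[i.val + j.val] e0 := by decide +kernel

/-- The mask matrix of an optional factor. -/
def pwM (b : Bool) (M : M9) : M9 := if b then M else one9

/-- The mask matrix of a code. -/
def phiM (c : Code) : M9 :=
  mmul (mmul (mmul (pwM c.2.1.1 mZ1) (pwM c.2.1.2 mZ2))
    (mmul (pwM c.2.2.1 (mX.getD 0 one9)) (mmul (pwM c.2.2.2.1 (mX.getD 1 one9))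
      (mmul (pwM c.2.2.2.2.1 (mX.getD 2 one9)) (pwM c.2.2.2.2.2 (mX.getD 3 one9))))))
    (mA.getD c.1.val one9)

/-- The code of a number. -/
def codeOf (n : ℕ) : Code :=
  (Fin.ofNat 5 (n / 64), (n / 32 % 2 == 1, n / 16 % 2 == 1),
    (n / 8 % 2 == 1, n / 4 % 2 == 1, n / 2 % 2 == 1, n % 2 == 1))

/-- The key of a matrix. -/
def key3 (M : M9) : ℕ := M.a.val + 16 * M.b.val + 256 * M.c.val

theorem ok_all : ok mS ∧ ok mT ∧ ok mZ1 ∧ ok mZ2 ∧ (∀ i : Fin 6, ok (mA.getD i.val one9)) ∧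
    (∀ i : Fin 5, ok (mX.getD i.val one9)) := by decide +kernel

theorem ok_W : ∀ n : Fin 195, ok (mW.getD n.val one9) := by decide +kernel

theorem table_A : ∀ i : Fin 5, mmul (mA.getD i.val one9) (mA.getD 1 one9) = mA.getD (i.val + 1) one9 := by
  decide +kernel

theorem table_ends : mA.getD 0 one9 = one9 ∧ mA.getD 5 one9 = one9 ∧ mW.getD 0 one9 = mT ∧
    mmul (mX.getD 0 one9) (mX.getD 0 one9) = mT ∧ mmul mT mT = one9 ∧ mmul mZ1 mZ1 = one9 ∧ mmul mZ2 mZ2 = one9 ∧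
    mmul (mX.getD 0 one9) (mX.getD 1 one9) = mmul (mmul (mX.getD 1 one9) (mX.getD 0 one9)) mZ1 ∧
    mmul (mX.getD 0 one9) (mX.getD 2 one9) = mmul (mmul (mX.getD 2 one9) (mX.getD 0 one9)) mZ2 ∧
    mX.getD 4 one9 = mmul (mmul (mmul (mX.getD 0 one9) (mX.getD 1 one9)) (mX.getD 2 one9)) (mX.getD 3 one9) ∧
    mmul mT (mX.getD 0 one9) = mmul (mX.getD 0 one9) mT ∧ mmul mT (mA.getD 1 one9) = mmul (mA.getD 1 one9) mT ∧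
    mmul mZ1 (mX.getD 0 one9) = mmul (mX.getD 0 one9) mZ1 ∧ mmul mZ1 (mA.getD 1 one9) = mmul (mA.getD 1 one9) mZ1 ∧
    mmul mZ2 (mX.getD 0 one9) = mmul (mX.getD 0 one9) mZ2 ∧ mmul mZ2 (mA.getD 1 one9) = mmul (mA.getD 1 one9) mZ2 ∧
    mT ≠ one9 := by
  decide +kernel

theorem table_X : ∀ i : Fin 5,
    mmul (mA.getD i.val one9) (mX.getD 0 one9) = mmul (mX.getD i.val one9) (mA.getD i.val one9) := by
  decide +kernel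

/-- The generator of a step. -/
def genM : ℕ → M9
  | 0 => mA.getD 1 one9
  | 1 => mX.getD 0 one9
  | _ => mS

theorem table_W : ∀ n : Fin 195, n.val ≠ 0 → (steps.getD n.val (0, 0)).2 < n.val ∧
    mmul (mW.getD n.val one9) (genM (steps.getD n.val (0, 0)).1) =
      mmul (genM (steps.getD n.val (0, 0)).1) (mW.getD (steps.getD n.val (0, 0)).2 one9) := by
  decide +kernel

theorem W_inj : ∀ m n : Fin 195, mW.getD m.val one9 = mW.getD n.val one9 → m = n := by decide +kernel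

theorem keys_mono : ∀ n : Fin 319,
    key3 (phiM (codeOf (order.getD n.val 0))) < key3 (phiM (codeOf (order.getD (n.val + 1) 0))) := by
  decide +kernel

variable {F : Type*} [Field F] (K : Coord F)

/-- The element of a mask. -/
noncomputable def el (n : N16) : F := K.bits.symm (bitsOf n)

theorem el_add (a b : N16) : el K (addN a b) = el K a + el K b := by rw [el, bitsOf_add, map_add]; rfl

theorem el_zero : el K 0 = 0 := by rw [el, bitsOf_zero, map_zero]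

theorem el_one : el K 1 = 1 := by rw [el, bitsOf_one, ← K.pow_eq, pow_zero]

theorem el_inj {a b : N16} (h : el K a = el K b) : a = b := bitsOf_inj _ _ (K.bits.symm.injective h)

theorem el_mul (a b : N16) : el K (mulN a b) = el K a * el K b := by
  rcases exp_cases a with rfl | ⟨i, rfl, hi⟩
  · rw [(mul_zero_cases b).1, el_zero, zero_mul]
  rcases exp_cases b with rfl | ⟨j, rfl, hj⟩
  · rw [(mul_zero_cases _).2, el_zero, mul_zero]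
  rw [el, el, el, mul_exp, hi, hj, ← K.pow_eq, ← K.pow_eq, ← K.pow_eq, pow_add]

theorem el_fr (a : N16) : el K (frN a) = el K a ^ 4 := by rw [frN, el_mul, el_mul]; ring

/-- The matrix of masks over the field. -/
noncomputable def toMat : M9 → Matrix (Fin 3) (Fin 3) F
  | ⟨a, b, c, d, e, f, g, h, i⟩ =>
    !![el K a, el K b, el K c; el K d, el K e, el K f; el K g, el K h, el K i]

theorem toMat_mul (A B : M9) : toMat K (mmul A B) = toMat K A * toMat K B := by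
  obtain ⟨a, b, c, d, e, f, g, h, i⟩ := A
  obtain ⟨p, q, r, s, t, u, v, w, x⟩ := B
  ext m n
  fin_cases m <;> fin_cases n <;> simp [toMat, mmul, Matrix.mul_apply, Fin.sum_univ_three, el_add, el_mul]

theorem toMat_one : toMat K one9 = 1 := by
  ext m n
  fin_cases m <;> fin_cases n <;> simp [toMat, one9, el_zero, el_one]

theorem toMat_inj {A B : M9} (h : toMat K A = toMat K B) : A = B := by
  obtain ⟨a, b, c, d, e, f, g, h', i⟩ := A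
  obtain ⟨p, q, r, s, t, u, v, w, x⟩ := B
  have g0 := fun m n => congrFun (congrFun h m) n
  have := el_inj K (g0 0 0); have := el_inj K (g0 0 1); have := el_inj K (g0 0 2)
  have := el_inj K (g0 1 0); have := el_inj K (g0 1 1); have := el_inj K (g0 1 2)
  have := el_inj K (g0 2 0); have := el_inj K (g0 2 1); have := el_inj K (g0 2 2)
  simp_all

theorem det_toMat {M : M9} (hM : ok M) : (toMat K M).det = 1 := by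
  obtain ⟨a, b, c, d, e, f, g, h, i⟩ := M
  obtain ⟨-, -, -, -, -, -, -, -, -, hd⟩ := hM
  have := congrArg (el K) hd
  simp only [el_add, el_mul, el_one] at this
  have h2 : (2 : F) = 0 := K.two_eq_zero
  rw [Matrix.det_fin_three]
  simp [toMat]
  linear_combination this - (el K a * el K f * el K h + el K b * el K d * el K i + el K c * el K e * el K g) * h2

theorem iso_toMat {M : M9} (hM : ok M) (u v : Fin 3 → F) :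
    Cfsg.hermForm 3 F 4 (Matrix.mulVec (toMat K M) u) (Matrix.mulVec (toMat K M) v) = Cfsg.hermForm 3 F 4 u v := by
  have := K.charP
  obtain ⟨a, b, c, d, e, f, g, h, i⟩ := M
  obtain ⟨q1, q2, q3, q4, q5, q6, q7, q8, q9, -⟩ := hM
  have E := fun {p q : N16} (hq : p = q) => congrArg (el K) hq
  have p1 := E q1; have p2 := E q2; have p3 := E q3; have p4 := E q4; have p5 := E q5
  have p6 := E q6; have p7 := E q7; have p8 := E q8; have p9 := E q9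
  simp only [dot3, el_add, el_mul, el_fr, el_one, el_zero] at p1 p2 p3 p4 p5 p6 p7 p8 p9
  simp [toMat, Cfsg.hermForm, Matrix.mulVec, dotProduct, Fin.sum_univ_three, add_pow_four, mul_pow]
  linear_combination (u 0 * v 0 ^ 4) * p1 + (u 0 * v 1 ^ 4) * p2 + (u 0 * v 2 ^ 4) * p3 +
    (u 1 * v 0 ^ 4) * p4 + (u 1 * v 1 ^ 4) * p5 + (u 1 * v 2 ^ 4) * p6 +
    (u 2 * v 0 ^ 4) * p7 + (u 2 * v 1 ^ 4) * p8 + (u 2 * v 2 ^ 4) * p9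

/-- The matrix of an element. -/
noncomputable def mat : Cfsg.SU 3 F 4 →* Matrix (Fin 3) (Fin 3) F where
  toFun g := g.1.1
  map_one' := rfl
  map_mul' _ _ := rfl

theorem mat_inj : Function.Injective (mat (F := F)) := fun _ _ h => Subtype.ext (Subtype.ext h)

/-- The element of a matrix of masks. -/
noncomputable def gel (M : M9) (hM : ok M) : Cfsg.SU 3 F 4 :=
  ⟨⟨toMat K M, det_toMat K hM⟩, iso_toMat K hM⟩

theorem mat_gel (M : M9) (hM : ok M) : mat (gel K M hM) = toMat K M := rfl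

variable [Fintype F]

/-- There is an involution of `PSU₃(4)` whose centralizer has the defining data and order 320. -/
theorem exists_centralizer_data (hF : Fintype.card F = 16) :
    ∃ t : Cfsg.PSU 3 F 4, orderOf t = 2 ∧
      ∃ (a x z1 z2 : Subgroup.centralizer ({t} : Set (Cfsg.PSU 3 F 4))), Data a x z1 z2 ∧
        Nat.card (Subgroup.centralizer ({t} : Set (Cfsg.PSU 3 F 4))) = 320 := by
  classical
  obtain ⟨K⟩ := exists_coord hF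
  obtain ⟨hcard, hcent⟩ := card_psu34 hF
  let e : Cfsg.SU 3 F 4 ≃* Cfsg.PSU 3 F 4 := QuotientGroup.quotientBot.symm.trans
    (QuotientGroup.quotientMulEquivOfEq (Subgroup.card_eq_one.1 hcent).symm)
  have hSU : Nat.card (Cfsg.SU 3 F 4) = 62400 := (Nat.card_congr e.toEquiv).trans hcard
  obtain ⟨okS, okT, okZ1, okZ2, okA, okX⟩ := ok_all
  obtain ⟨A0, A5, W0, XX, TT, Z11, Z22, R1, R2, R4, TX, TA, Z1X, Z1A, Z2X, Z2A, Tne⟩ := table_ends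
  set a : Cfsg.SU 3 F 4 := gel K _ (okA 1)
  set x : Cfsg.SU 3 F 4 := gel K _ (okX 0)
  set T : Cfsg.SU 3 F 4 := gel K _ okT
  set z1 : Cfsg.SU 3 F 4 := gel K _ okZ1
  set z2 : Cfsg.SU 3 F 4 := gel K _ okZ2
  have me : ∀ {g h : Cfsg.SU 3 F 4} {M N : M9}, mat g = toMat K M → mat h = toMat K N → M = N → g = h :=
    fun hg hh he => mat_inj (hg.trans (he ▸ hh.symm))
  have mm : ∀ {g h : Cfsg.SU 3 F 4} {M N : M9}, mat g = toMat K M → mat h = toMat K N →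
      mat (g * h) = toMat K (mmul M N) := fun hg hh => by rw [map_mul, hg, hh, toMat_mul]
  have m1 : mat (1 : Cfsg.SU 3 F 4) = toMat K one9 := by rw [map_one, toMat_one]
  have ga : mat a = toMat K (mA.getD 1 one9) := rfl
  have gx : mat x = toMat K (mX.getD 0 one9) := rfl
  have gT : mat T = toMat K mT := rfl
  have gz1 : mat z1 = toMat K mZ1 := rfl
  have gz2 : mat z2 = toMat K mZ2 := rfl
  have hA : ∀ i, i ≤ 5 → mat (a ^ i) = toMat K (mA.getD i one9) := by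
    intro i hi
    induction i with
    | zero => rw [pow_zero, A0]; exact m1
    | succ n ih =>
      rw [pow_succ, ← table_A ⟨n, by omega⟩]
      exact mm (ih (by omega)) ga
  have a5 : a ^ 5 = 1 := me (hA 5 le_rfl) m1 A5
  have hcj : ∀ i : Fin 5, mat (cj a x i.val) = toMat K (mX.getD i.val one9) := by
    intro i
    have hXi : mat (gel K _ (okX i)) = toMat K (mX.getD i.val one9) := rfl
    have : gel K _ (okX i) = cj a x i.val := by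
      rw [cj, eq_mul_inv_iff_mul_eq]
      exact me (mm hXi (hA _ (by omega))) (mm (hA _ (by omega)) gx) (table_X i).symm
    rw [← this]; exact hXi
  set H : Subgroup (Cfsg.SU 3 F 4) := Subgroup.closure {a, x} with hH
  have cen : ∀ {z : Cfsg.SU 3 F 4}, z * a = a * z → z * x = x * z → ∀ g ∈ H, z * g = g * z := by
    intro z hza hzx g hg
    have : H ≤ Subgroup.centralizer {z} := by
      rw [hH, Subgroup.closure_le]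
      rintro y (rfl | rfl)
      · exact Subgroup.mem_centralizer_singleton_iff.2 hza.symm
      · exact Subgroup.mem_centralizer_singleton_iff.2 hzx.symm
    exact (Subgroup.mem_centralizer_singleton_iff.1 (this hg)).symm
  have cT := cen (z := T) (me (mm gT ga) (mm ga gT) TA) (me (mm gT gx) (mm gx gT) TX)
  have cz1 := cen (z := z1) (me (mm gz1 ga) (mm ga gz1) Z1A) (me (mm gz1 gx) (mm gx gz1) Z1X)
  have cz2 := cen (z := z2) (me (mm gz2 ga) (mm ga gz2) Z2A) (me (mm gz2 gx) (mm gx gz2) Z2X)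
  have hxx : x * x = T := me (mm gx gx) gT XX
  have hTT : T * T = 1 := me (mm gT gT) m1 TT
  have haH : a ∈ H := Subgroup.subset_closure (Or.inl rfl)
  have hxH : x ∈ H := Subgroup.subset_closure (Or.inr rfl)
  have hcjH : ∀ i, cj a x i ∈ H := fun i => mul_mem (mul_mem (pow_mem haH _) hxH) (inv_mem (pow_mem haH _))
  have e1 : x * cj a x 1 = cj a x 1 * x * z1 := me (mm gx (hcj 1)) (mm (mm (hcj 1) gx) gz1) R1
  have e2 : x * cj a x 2 = cj a x 2 * x * z2 := me (mm gx (hcj 2)) (mm (mm (hcj 2) gx) gz2) R2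
  have e4 : cj a x 4 = x * cj a x 1 * cj a x 2 * cj a x 3 :=
    me (hcj 4) (mm (mm (mm gx (hcj 1)) (hcj 2)) (hcj 3)) R4
  have hz1H : z1 ∈ H := by
    rw [show z1 = (cj a x 1 * x)⁻¹ * (x * cj a x 1) by rw [e1, inv_mul_cancel_left]]
    exact mul_mem (inv_mem (mul_mem (hcjH 1) hxH)) (mul_mem hxH (hcjH 1))
  have hz2H : z2 ∈ H := by
    rw [show z2 = (cj a x 2 * x)⁻¹ * (x * cj a x 2) by rw [e2, inv_mul_cancel_left]]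
    exact mul_mem (inv_mem (mul_mem (hcjH 2) hxH)) (mul_mem hxH (hcjH 2))
  set C := Subgroup.centralizer ({T} : Set (Cfsg.SU 3 F 4)) with hC
  have hHC : H ≤ C := fun g hg => Subgroup.mem_centralizer_singleton_iff.2 (cT g hg).symm
  have hconj : ∀ n : Fin 195, ∃ g : Cfsg.SU 3 F 4, mat (g * T * g⁻¹) = toMat K (mW.getD n.val one9) := by
    rintro ⟨n, hn⟩
    induction n using Nat.strong_induction_on with
    | _ n ih =>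
      by_cases h0 : n = 0
      · subst h0
        exact ⟨1, by rw [one_mul, inv_one, mul_one, W0]; rfl⟩
      obtain ⟨hlt, heq⟩ := table_W ⟨n, hn⟩ h0
      dsimp only at hlt heq ⊢
      obtain ⟨g, hg⟩ := ih _ hlt (hlt.trans hn)
      have okG : ok (genM (steps.getD n (0, 0)).1) := by
        rcases (steps.getD n (0, 0)).1 with _ | _ | k
        · exact okA 1
        · exact okX 0
        · exact okS
      set G := gel K _ okG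
      refine ⟨G * g, ?_⟩
      have hw : gel K _ (ok_W ⟨n, hn⟩) = G * g * T * (G * g)⁻¹ := by
        rw [show G * g * T * (G * g)⁻¹ = G * (g * T * g⁻¹) * G⁻¹ by group, eq_mul_inv_iff_mul_eq]
        exact me (mm (mat_gel K _ _) (mat_gel K _ _)) (mm (mat_gel K _ _) hg) heq
      rw [← hw]; rfl
  choose cg hcg using hconj
  have hindex : 195 ≤ C.index := by
    have : Function.Injective fun n => (QuotientGroup.mk (cg n) : Cfsg.SU 3 F 4 ⧸ C) := by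
      intro m n h
      have h' := Subgroup.mem_centralizer_singleton_iff.1 (QuotientGroup.eq.1 h)
      have : cg n * T * (cg n)⁻¹ = cg m * T * (cg m)⁻¹ := by
        calc cg n * T * (cg n)⁻¹ = cg m * (((cg m)⁻¹ * cg n) * T) * (cg n)⁻¹ := by group
          _ = cg m * (T * ((cg m)⁻¹ * cg n)) * (cg n)⁻¹ := by rw [h']
          _ = cg m * T * (cg m)⁻¹ := by group
      exact W_inj _ _ (toMat_inj K ((hcg m).symm.trans ((congrArg mat this).symm.trans (hcg n))))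
    have := Nat.card_le_card_of_injective _ this
    rwa [Nat.card_eq_fintype_card, Fintype.card_fin] at this
  have hCle : Nat.card C ≤ 320 := by
    have := Subgroup.card_mul_index C
    rw [hSU] at this
    nlinarith
  have hphi : ∀ c : Code, mat (φ a x z1 z2 c) = toMat K (phiM c) ∧ φ a x z1 z2 c ∈ H := by
    intro c
    have gp : ∀ (b : Bool) {g : Cfsg.SU 3 F 4} {M : M9}, mat g = toMat K M →
        mat (pw b g) = toMat K (pwM b M) := by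
      intro b g M hg
      cases b
      · exact m1
      · exact hg
    have gm : ∀ (b : Bool) {g : Cfsg.SU 3 F 4}, g ∈ H → pw b g ∈ H := by
      intro b g hg
      cases b
      · exact one_mem H
      · exact hg
    exact ⟨mm (mm (mm (gp _ gz1) (gp _ gz2)) (mm (gp _ gx) (mm (gp _ (hcj 1)) (mm (gp _ (hcj 2)) (gp _ (hcj 3))))))
      (hA _ (by omega)), mul_mem (mul_mem (mul_mem (gm _ hz1H) (gm _ hz2H))
        (mul_mem (gm _ hxH) (mul_mem (gm _ (hcjH 1)) (mul_mem (gm _ (hcjH 2)) (gm _ (hcjH 3)))))) (pow_mem haH _)⟩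
  have hHge : 320 ≤ Nat.card H := by
    have : Function.Injective fun n : Fin 320 => (⟨_, (hphi (codeOf (order.getD n.val 0))).2⟩ : H) := by
      intro m n h
      have hk := congrArg key3 (toMat_inj K ((hphi _).1.symm.trans
        ((congrArg (fun y : H => mat y.1) h).trans (hphi _).1)))
      have hmono : StrictMono fun n : Fin 320 => key3 (phiM (codeOf (order.getD n.val 0))) :=
        Fin.strictMono_iff_lt_succ.2 fun i => keys_mono i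
      exact hmono.injective hk
    have := Nat.card_le_card_of_injective _ this
    rwa [Nat.card_eq_fintype_card, Fintype.card_fin] at this
  have hHle : Nat.card H ≤ Nat.card C := Subgroup.card_le_of_le hHC
  have hHeq : H = C := Subgroup.eq_of_le_of_card_ge hHC (by omega)
  have hCcard : Nat.card C = 320 := by omega
  have hmap : C.map e.toMonoidHom = Subgroup.centralizer ({e T} : Set (Cfsg.PSU 3 F 4)) := by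
    ext g
    obtain ⟨g, rfl⟩ := e.surjective g
    change e.toMonoidHom g ∈ _ ↔ _
    rw [Subgroup.mem_map_iff_mem e.injective, hC, Subgroup.mem_centralizer_singleton_iff,
      Subgroup.mem_centralizer_singleton_iff]
    change _ ↔ e g * e T = e T * e g
    rw [← map_mul, ← map_mul, e.injective.eq_iff]
  refine ⟨e T, ?_, ?_⟩
  · rw [MulEquiv.orderOf_eq]
    exact orderOf_eq_prime (by rw [pow_two, hTT]) fun h => Tne (toMat_inj K (gT.symm.trans ((congrArg mat h).trans m1)))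
  rw [← hmap]
  let ec : C ≃* C.map e.toMonoidHom := C.equivMapOfInjective e.toMonoidHom e.injective
  have hCH : C ≤ H := hHeq.ge
  refine ⟨ec ⟨a, hHC haH⟩, ec ⟨x, hHC hxH⟩, ec ⟨z1, hHC hz1H⟩, ec ⟨z2, hHC hz2H⟩, ?_,
    (Nat.card_congr ec.toEquiv).symm.trans hCcard⟩
  have hcje : ∀ i, cj (ec ⟨a, hHC haH⟩) (ec ⟨x, hHC hxH⟩) i = ec ⟨cj a x i, hHC (hcjH i)⟩ := fun i => by
    rw [cj, ← map_pow, ← map_mul, ← map_inv, ← map_mul]; rfl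
  refine ⟨fun g => ?_, fun g => ?_, ?_, ?_, ?_, fun g => ?_, ?_, ?_, ?_, ?_, ?_⟩
  · obtain ⟨g, rfl⟩ := ec.surjective g
    rw [← map_mul, ← map_mul]; exact congrArg ec (Subtype.ext (cz1 g.1 (hCH g.2)))
  · obtain ⟨g, rfl⟩ := ec.surjective g
    rw [← map_mul, ← map_mul]; exact congrArg ec (Subtype.ext (cz2 g.1 (hCH g.2)))
  · rw [← map_mul, ← map_one ec]; exact congrArg ec (Subtype.ext (me (mm gz1 gz1) m1 Z11))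
  · rw [← map_mul, ← map_one ec]; exact congrArg ec (Subtype.ext (me (mm gz2 gz2) m1 Z22))
  · rw [← map_pow, ← map_one ec]; exact congrArg ec (Subtype.ext a5)
  · obtain ⟨g, rfl⟩ := ec.surjective g
    simp only [← map_mul]; refine congrArg ec (Subtype.ext ?_)
    change x * x * g.1 = g.1 * (x * x)
    rw [hxx]; exact cT g.1 (hCH g.2)
  · simp only [← map_mul]; rw [← map_one ec]; refine congrArg ec (Subtype.ext ?_)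
    change x * x * (x * x) = 1
    rw [hxx]; exact hTT
  · rw [hcje]; simp only [← map_mul]; exact congrArg ec (Subtype.ext e1)
  · rw [hcje]; simp only [← map_mul]; exact congrArg ec (Subtype.ext e2)
  · rw [hcje, hcje, hcje, hcje]; simp only [← map_mul]; exact congrArg ec (Subtype.ext e4)
  · have hgen : Subgroup.closure ({⟨a, hHC haH⟩, ⟨x, hHC hxH⟩} : Set C) = ⊤ := by
      refine Subgroup.map_injective C.subtype_injective ?_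
      rw [MonoidHom.map_closure, Set.image_pair]
      rw [← MonoidHom.range_eq_map, Subgroup.range_subtype]
      exact hHeq
    rw [show ({ec ⟨a, hHC haH⟩, ec ⟨x, hHC hxH⟩} : Set _) = ec.toMonoidHom '' {⟨a, hHC haH⟩, ⟨x, hHC hxH⟩} from
      (Set.image_pair _ _ _).symm, ← MonoidHom.map_closure, hgen]
    exact Subgroup.map_top_of_surjective _ ec.surjective

end Cfsg.Agent.Core.ThreeTwenty
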