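import Cfsg.Agent.Core.ThreeTwenty.Model
import Mathlib

/-!
# Recognition of the group of order 320
-/

set_option autoImplicit false

namespace Cfsg.Agent.Core.ThreeTwenty

open scoped commutatorElement

variable {G : Type*} [Group G] [Finite G]

theorem centre_facts (hG : Nat.card G = 320) (hD : Nat.card (commutator G) = 64)
    (hZ : IsKleinFour (Subgroup.center (commutator G))) :
    ∃ (Z : Subgroup G) (a : G), Nat.card Z = 4 ∧ Z ≤ commutator G ∧ Z ≤ Subgroup.center G ∧
      (∀ z ∈ Z, z * z = 1) ∧ a ∉ commutator G ∧ a ^ 5 = 1 := by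
  set Z : Subgroup G := (Subgroup.center (commutator G)).map (commutator G).subtype with hZdef
  have hZcard : Nat.card Z = 4 := by
    rw [hZdef, Subgroup.card_map_of_injective (commutator G).subtype_injective]; exact hZ.card_four
  have hZle : Z ≤ commutator G := Subgroup.map_subtype_le _
  have hsq : ∀ z ∈ Z, z * z = 1 := by
    rintro _ ⟨z, hz, rfl⟩
    have h2 : (⟨z, hz⟩ : Subgroup.center (commutator G)) * ⟨z, hz⟩ = 1 := IsKleinFour.mul_self _
    exact congrArg (fun y : Subgroup.center (commutator G) => ((y : commutator G) : G)) h2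
  have : Fact (Nat.Prime 5) := ⟨by norm_num⟩
  obtain ⟨a, ha⟩ := exists_prime_orderOf_dvd_card' 5 (G := G) (by rw [hG]; norm_num)
  have haD : a ∉ commutator G := fun h => by
    have := Subgroup.orderOf_dvd_natCard _ h
    rw [hD, ha] at this
    norm_num at this
  have ha5 : a ^ 5 = 1 := ha ▸ pow_orderOf_eq_one a
  refine ⟨Z, a, hZcard, hZle, ?_, hsq, haD, ha5⟩
  have hnorm : Z.Normal := by
    refine ⟨fun z hz g => ?_⟩
    obtain ⟨z, hzc, rfl⟩ := hz
    refine ⟨⟨g * z * g⁻¹, (inferInstance : (commutator G).Normal).conj_mem _ z.2 g⟩, ?_, rfl⟩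
    refine Subgroup.mem_center_iff.2 fun y => Subtype.ext ?_
    have hy : g⁻¹ * y * g ∈ commutator G := by
      simpa using (inferInstance : (commutator G).Normal).conj_mem _ y.2 g⁻¹
    have hc : g⁻¹ * (y : G) * g * z = z * (g⁻¹ * y * g) :=
      congrArg Subtype.val (Subgroup.mem_center_iff.1 hzc ⟨_, hy⟩)
    change (y : G) * (g * z * g⁻¹) = g * z * g⁻¹ * y
    calc (y : G) * (g * z * g⁻¹) = g * (g⁻¹ * y * g * z) * g⁻¹ := by group
      _ = g * (z * (g⁻¹ * y * g)) * g⁻¹ := by rw [hc]
      _ = g * z * g⁻¹ * y := by group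
  -- the centralizer of `Z` is everything
  set C := Subgroup.centralizer (Z : Set G) with hC
  have hDC : commutator G ≤ C := fun d hd => Subgroup.mem_centralizer_iff.2 fun z hz => by
    obtain ⟨z, hzc, rfl⟩ := hz
    exact (congrArg Subtype.val (Subgroup.mem_center_iff.1 hzc ⟨d, hd⟩)).symm
  have haC : a ∈ C := by
    let σ : G →* Equiv.Perm Z := (MulAut.toPerm Z).comp MulAut.conjNormal
    have h1 : orderOf (σ a) ∣ 5 := ha ▸ orderOf_map_dvd σ a
    have h2 : orderOf (σ a) ∣ 24 := by
      have := orderOf_dvd_natCard (σ a)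
      rwa [Nat.card_perm, hZcard] at this
    have h3 : σ a = 1 := orderOf_eq_one_iff.1 (Nat.dvd_one.1 (by
      have := Nat.dvd_gcd h1 h2
      norm_num at this ⊢
      exact this))
    refine Subgroup.mem_centralizer_iff.2 fun z hz => ?_
    have h4 : a * z * a⁻¹ = z := congrArg Subtype.val (Equiv.Perm.ext_iff.1 h3 ⟨z, hz⟩)
    calc z * a = a * z * a⁻¹ * a := by rw [h4]
      _ = a * z := by group
  have htop : C = ⊤ := by
    have hdvd : Nat.card (commutator G) ∣ Nat.card C := Subgroup.card_dvd_of_le hDC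
    have h5 : 5 ∣ Nat.card C := ha ▸ Subgroup.orderOf_dvd_natCard C haC
    rw [hD] at hdvd
    have h320 : 320 ∣ Nat.card C := Nat.Coprime.mul_dvd_of_dvd_of_dvd (by norm_num : Nat.Coprime 64 5) hdvd h5
    exact Subgroup.eq_top_of_le_card _ (by rw [hG]; exact Nat.le_of_dvd Nat.card_pos h320)
  intro z hz
  refine Subgroup.mem_center_iff.2 fun g => ?_
  exact (Subgroup.mem_centralizer_iff.1 (htop.ge (Subgroup.mem_top g) : g ∈ C) z hz).symm

/-- The structure of a group of order 80 with derived group of order 16. -/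
theorem quotient_facts {Q : Type*} [Group Q] [Finite Q] (hQ : Nat.card Q = 80)
    (hP : Nat.card (commutator Q) = 16) (a : Q) (ha : a ∉ commutator Q) (ha5 : a ^ 5 = 1) :
    (∀ u ∈ commutator Q, ∀ v ∈ commutator Q, u * v = v * u) ∧ (∀ u ∈ commutator Q, u * u = 1) ∧
      ∀ w ∈ commutator Q, w ≠ 1 → (cj a w 4 = w * cj a w 1 * cj a w 2 * cj a w 3) ∧
        Subgroup.closure ({a, w} : Set Q) = ⊤ := by
  set P := commutator Q with hPdef
  have : Fact (Nat.Prime 5) := ⟨by norm_num⟩
  have : Fact (Nat.Prime 2) := ⟨by norm_num⟩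
  have hao : orderOf a = 5 := orderOf_eq_prime ha5 fun h => ha (h ▸ one_mem P)
  have hA : Nat.card (Subgroup.zpowers a) = 5 := by rw [Nat.card_zpowers, hao]
  have big : ∀ K : Subgroup Q, P ≤ K → a ∈ K → K = ⊤ := fun K hPK haK => by
    have h1 : 16 ∣ Nat.card K := hP ▸ Subgroup.card_dvd_of_le hPK
    have h2 : 5 ∣ Nat.card K := hao ▸ Subgroup.orderOf_dvd_natCard K haK
    have := Nat.Coprime.mul_dvd_of_dvd_of_dvd (by norm_num : Nat.Coprime 16 5) h1 h2
    exact Subgroup.eq_top_of_le_card _ (by rw [hQ]; exact Nat.le_of_dvd Nat.card_pos this)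
  have hPp : IsPGroup 2 P := IsPGroup.of_card (n := 4) (by rw [hP]; norm_num)
  have : Nontrivial P := Finite.one_lt_card_iff_nontrivial.1 (by rw [hP]; norm_num)
  -- invariant subgroups, through the fixed points of `a`
  have fixcount : ∀ K : Subgroup Q, K ≤ P → (∀ k ∈ K, a * k * a⁻¹ ∈ K) →
      Nat.card K ≡ Nat.card (K ⊓ Subgroup.centralizer {a} : Subgroup Q) [MOD 5] := by
    intro K _ hK
    have hinv : ∀ g ∈ Subgroup.zpowers a, ∀ k ∈ K, g * k * g⁻¹ ∈ K := by
      intro g hg
      obtain ⟨n, rfl⟩ := (mem_powers_iff_mem_zpowers).2 hg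
      induction n with
      | zero => intro k hk; simpa using hk
      | succ n ih =>
        intro k hk
        have := hK _ (ih (Submonoid.mem_powers_iff _ _ |>.2 ⟨n, rfl⟩ |> mem_powers_iff_mem_zpowers.1) k hk)
        change a ^ (n + 1) * k * (a ^ (n + 1))⁻¹ ∈ K
        convert this using 1
        rw [pow_succ']; group
    let act : MulAction (Subgroup.zpowers a) K :=
      { smul := fun g k => ⟨g * k * (g : Q)⁻¹, hinv g g.2 k k.2⟩
        one_smul := fun k => Subtype.ext (by show (1 : Q) * k * 1⁻¹ = k; group)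
        mul_smul := fun g g' k => Subtype.ext (by
          show ((g : Q) * g') * k * ((g : Q) * g')⁻¹ = g * (g' * k * (g' : Q)⁻¹) * (g : Q)⁻¹; group) }
    have hp : IsPGroup 5 (Subgroup.zpowers a) := IsPGroup.of_card (n := 1) (by rw [hA, pow_one])
    have := hp.card_modEq_card_fixedPoints K
    rw [Nat.card_congr (show MulAction.fixedPoints (Subgroup.zpowers a) K ≃ (K ⊓ Subgroup.centralizer {a} : Subgroup Q) from ?_)] at this
    · exact this
    refine
      { toFun := fun k => ⟨k.1.1, k.1.2, Subgroup.mem_centralizer_singleton_iff.2 ?_⟩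
        invFun := fun k => ⟨⟨k.1, k.2.1⟩, fun g => Subtype.ext ?_⟩
        left_inv := fun k => rfl
        right_inv := fun k => rfl }
    · have h := congrArg Subtype.val (k.2 ⟨a, Subgroup.mem_zpowers a⟩)
      change a * k.1.1 * a⁻¹ = k.1.1 at h
      calc k.1.1 * a = a * k.1.1 * a⁻¹ * a := by rw [h]
        _ = a * k.1.1 := by group
    · change (g : Q) * k.1 * (g : Q)⁻¹ = k.1
      have hc : Subgroup.zpowers a ≤ Subgroup.centralizer {k.1} := by
        rw [Subgroup.zpowers_le, Subgroup.mem_centralizer_singleton_iff]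
        exact (Subgroup.mem_centralizer_singleton_iff.1 k.2.2).symm
      rw [Subgroup.mem_centralizer_singleton_iff.1 (hc g.2), mul_inv_cancel_right]
  have hPinv : ∀ k ∈ P, a * k * a⁻¹ ∈ P := fun k hk => (inferInstance : (commutator Q).Normal).conj_mem k hk a
  have hfix : (P ⊓ Subgroup.centralizer {a} : Subgroup Q) = ⊥ := by
    set F0 := (P ⊓ Subgroup.centralizer {a} : Subgroup Q) with hF0
    have h1 := fixcount P le_rfl hPinv
    rw [hP] at h1
    have h2 : Nat.card F0 ∣ 2 ^ 4 := by
      rw [show (2 : ℕ) ^ 4 = 16 by norm_num, ← hP]; exact Subgroup.card_dvd_of_le inf_le_left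
    obtain ⟨k, hk, hk'⟩ := (Nat.dvd_prime_pow Nat.prime_two).1 h2
    have hk04 : k = 0 ∨ k = 4 := by
      rw [← hF0, hk'] at h1
      interval_cases k <;> first | omega | exact absurd h1 (by decide)
    rcases hk04 with rfl | rfl
    · exact Subgroup.card_eq_one.1 (by rw [hk']; norm_num)
    exfalso
    have hPc : P ≤ Subgroup.centralizer {a} := by
      have he : F0 = P := Subgroup.eq_of_le_of_card_ge inf_le_left (by rw [hP, hk']; norm_num)
      rw [← he]; exact inf_le_right
    have hne : (commutator P).map P.subtype < P := by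
      have := hPp.isNilpotent
      have h := Group.IsSolvable.commutator_lt_top_of_nontrivial P
      refine lt_of_le_of_ne (Subgroup.map_subtype_le _) fun e => h.ne ?_
      exact Subgroup.map_injective P.subtype_injective (by rw [e, ← MonoidHom.range_eq_map, Subgroup.range_subtype])
    set N := (commutator P).map P.subtype with hN
    have hNn : N.Normal := by
      rw [hN, commutator_def, Subgroup.map_commutator, ← MonoidHom.range_eq_map, Subgroup.range_subtype]
      infer_instance
    apply hne.not_ge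
    have hab : ∀ g h : Q ⧸ N, g * h = h * g := by
      have key : ∀ u ∈ ({a} ∪ (P : Set Q)), ∀ v ∈ ({a} ∪ (P : Set Q)),
          (QuotientGroup.mk' N u) * QuotientGroup.mk' N v = QuotientGroup.mk' N v * QuotientGroup.mk' N u := by
        rintro u (rfl | hu) v (rfl | hv)
        · rfl
        · rw [← map_mul, ← map_mul, Subgroup.mem_centralizer_singleton_iff.1 (hPc hv)]
        · rw [← map_mul, ← map_mul, Subgroup.mem_centralizer_singleton_iff.1 (hPc hu)]
        · refine commutatorElement_eq_one_iff_mul_comm.1 ?_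
          rw [← map_commutatorElement]
          refine (QuotientGroup.eq_one_iff _).2 ?_
          exact ⟨⁅(⟨u, hu⟩ : P), ⟨v, hv⟩⁆, Subgroup.commutator_mem_commutator trivial trivial, rfl⟩
      have htop : Subgroup.closure ({a} ∪ (P : Set Q)) = ⊤ :=
        big _ (fun p hp => Subgroup.subset_closure (Or.inr hp)) (Subgroup.subset_closure (Or.inl rfl))
      have h1 : ∀ u ∈ ({a} ∪ (P : Set Q)), ∀ g : Q,
          QuotientGroup.mk' N u * QuotientGroup.mk' N g = QuotientGroup.mk' N g * QuotientGroup.mk' N u := by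
        intro u hu g
        induction (htop.ge (Subgroup.mem_top g) : g ∈ Subgroup.closure ({a} ∪ (P : Set Q))) using
          Subgroup.closure_induction with
        | mem v hv => exact key u hu v hv
        | one => simp
        | mul v w _ _ hv hw => rw [map_mul, ← mul_assoc, hv, mul_assoc, hw, mul_assoc]
        | inv v _ hv => rw [map_inv]; exact Commute.inv_right hv
      intro g h
      obtain ⟨g, rfl⟩ := QuotientGroup.mk'_surjective N g
      obtain ⟨h, rfl⟩ := QuotientGroup.mk'_surjective N h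
      induction (htop.ge (Subgroup.mem_top g) : g ∈ Subgroup.closure ({a} ∪ (P : Set Q))) using
        Subgroup.closure_induction with
      | mem v hv => exact h1 v hv h
      | one => simp
      | mul v w _ _ hv hw => rw [map_mul, mul_assoc, hw, ← mul_assoc, hv, mul_assoc]
      | inv v _ hv => rw [map_inv]; exact Commute.inv_left hv
    rw [hPdef, commutator_def, Subgroup.commutator_le]
    intro g _ h _
    rw [← QuotientGroup.eq_one_iff (N := N), ← QuotientGroup.mk'_apply, map_commutatorElement]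
    exact commutatorElement_eq_one_iff_mul_comm.2 (hab _ _)
  have irred : ∀ K : Subgroup Q, K ≤ P → (∀ k ∈ K, a * k * a⁻¹ ∈ K) → K ≠ ⊥ → K = P := by
    intro K hKP hK hne
    have h1 := fixcount K hKP hK
    rw [show (K ⊓ Subgroup.centralizer {a} : Subgroup Q) = ⊥ from
      le_bot_iff.1 (hfix ▸ inf_le_inf_right _ hKP), Subgroup.card_bot] at h1
    have h2 : Nat.card K ∣ 2 ^ 4 := by
      rw [show (2 : ℕ) ^ 4 = 16 by norm_num, ← hP]; exact Subgroup.card_dvd_of_le hKP
    obtain ⟨k, hk, hk'⟩ := (Nat.dvd_prime_pow Nat.prime_two).1 h2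
    have hk04 : k = 0 ∨ k = 4 := by
      rw [hk'] at h1
      interval_cases k <;> first | omega | exact absurd h1 (by decide)
    rcases hk04 with rfl | rfl
    · exact absurd (Subgroup.card_eq_one.1 (by rw [hk']; norm_num)) hne
    · exact Subgroup.eq_of_le_of_card_ge hKP (by rw [hP, hk']; norm_num)
  -- commutative
  have hcomm : ∀ u ∈ P, ∀ v ∈ P, u * v = v * u := by
    have he : (Subgroup.center P).map P.subtype = P := by
      refine irred _ (Subgroup.map_subtype_le _) ?_ ?_
      · rintro _ ⟨k, hk, rfl⟩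
        refine ⟨⟨a * k * a⁻¹, hPinv _ k.2⟩, Subgroup.mem_center_iff.2 fun y => Subtype.ext ?_, rfl⟩
        have hy : a⁻¹ * y * a ∈ P := by
          simpa using (inferInstance : (commutator Q).Normal).conj_mem _ y.2 a⁻¹
        have hc : a⁻¹ * (y : Q) * a * k = k * (a⁻¹ * y * a) :=
          congrArg Subtype.val (Subgroup.mem_center_iff.1 hk ⟨_, hy⟩)
        change (y : Q) * (a * k * a⁻¹) = a * k * a⁻¹ * y
        calc (y : Q) * (a * k * a⁻¹) = a * (a⁻¹ * y * a * k) * a⁻¹ := by group
          _ = a * (k * (a⁻¹ * y * a)) * a⁻¹ := by rw [hc]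
          _ = a * k * a⁻¹ * y := by group
      · have := hPp.center_nontrivial
        rw [Ne, Subgroup.map_eq_bot_iff_of_injective _ P.subtype_injective]
        exact (Subgroup.nontrivial_iff_ne_bot _).1 this
    intro u hu v hv
    have : (⟨u, hu⟩ : P) ∈ Subgroup.center P := by
      have h' : u ∈ (Subgroup.center P).map P.subtype := he.symm ▸ hu
      obtain ⟨w, hw, rfl⟩ := h'
      exact hw
    exact (congrArg Subtype.val (Subgroup.mem_center_iff.1 this ⟨v, hv⟩)).symm
  -- exponent two
  have hexp : ∀ u ∈ P, u * u = 1 := by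
    let K : Subgroup Q :=
      { carrier := {u | u ∈ P ∧ u * u = 1}
        one_mem' := ⟨one_mem P, mul_one 1⟩
        mul_mem' := fun {u v} hu hv => ⟨mul_mem hu.1 hv.1, by
          rw [show u * v * (u * v) = u * (v * u) * v by group, hcomm v hv.1 u hu.1,
            show u * (u * v) * v = u * u * (v * v) by group, hu.2, hv.2, mul_one]⟩
        inv_mem' := fun {u} hu => ⟨inv_mem hu.1, by rw [← mul_inv_rev, hu.2, inv_one]⟩ }
    have he : K = P := by
      refine irred K (fun u hu => hu.1) (fun u hu => ⟨hPinv u hu.1, ?_⟩) ?_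
      · rw [show a * u * a⁻¹ * (a * u * a⁻¹) = a * (u * u) * a⁻¹ by group, hu.2, mul_one, mul_inv_cancel]
      · obtain ⟨t, ht⟩ := exists_prime_orderOf_dvd_card' 2 (G := P) (by rw [hP]; norm_num)
        intro e
        have hmem : (t : Q) ∈ K := ⟨t.2, by
          have := pow_orderOf_eq_one t
          rw [ht, pow_two] at this
          exact congrArg Subtype.val this⟩
        rw [e, Subgroup.mem_bot] at hmem
        rw [show t = 1 from Subtype.ext hmem, orderOf_one] at ht
        norm_num at ht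
    intro u hu
    exact (he.ge hu : u ∈ K).2
  refine ⟨hcomm, hexp, fun w hw hw1 => ⟨?_, ?_⟩⟩
  · have hwi : ∀ i, cj a w i ∈ P := fun i => (inferInstance : (commutator Q).Normal).conj_mem w hw _
    set p := w * cj a w 1 * cj a w 2 * cj a w 3 with hp
    have hpP : p ∈ P := mul_mem (mul_mem (mul_mem hw (hwi 1)) (hwi 2)) (hwi 3)
    have hfixed : p * cj a w 4 ∈ (P ⊓ Subgroup.centralizer {a} : Subgroup Q) := by
      refine ⟨mul_mem hpP (hwi 4), Subgroup.mem_centralizer_singleton_iff.2 ?_⟩
      have h5 : cj a w 5 = w := by rw [cj, ha5]; group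
      have e : a * (p * cj a w 4) * a⁻¹ = cj a w 1 * cj a w 2 * cj a w 3 * cj a w 4 * cj a w 5 := by
        simp only [hp, cj]; group
      have e' : a * (p * cj a w 4) * a⁻¹ = p * cj a w 4 := by
        rw [e, h5, hcomm _ (mul_mem (mul_mem (mul_mem (hwi 1) (hwi 2)) (hwi 3)) (hwi 4)) _ hw, hp]
        group
      calc p * cj a w 4 * a = a * (p * cj a w 4) * a⁻¹ * a := by rw [e']
        _ = a * (p * cj a w 4) := by group
    rw [hfix, Subgroup.mem_bot] at hfixed
    exact mul_left_cancel (hfixed.trans (hexp p hpP).symm)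
  · set K := Subgroup.closure ({a, w} : Set Q) with hK
    have haK : a ∈ K := Subgroup.subset_closure (Or.inl rfl)
    refine big K ?_ haK
    have he : K ⊓ P = P := irred _ inf_le_right
      (fun k hk => ⟨K.mul_mem (K.mul_mem haK hk.1) (K.inv_mem haK), hPinv k hk.2⟩)
      (fun e => hw1 (Subgroup.mem_bot.1 (e ▸ ⟨Subgroup.subset_closure (Or.inr rfl), hw⟩)))
    exact he ▸ inf_le_left

/-- A group of order 320 with derived group of order 64 and centre a four group of the latter. -/
theorem exists_data (hG : Nat.card G = 320) (hD : Nat.card (commutator G) = 64)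
    (hZ : IsKleinFour (Subgroup.center (commutator G))) :
    ∃ a x z1 z2 : G, Data a x z1 z2 := by
  obtain ⟨Z, a, hZcard, hZD, hZC, hZsq, haD, ha5⟩ := centre_facts hG hD hZ
  have hc : ∀ z ∈ Z, ∀ g, z * g = g * z := fun z hz g => (Subgroup.mem_center_iff.1 (hZC hz) g).symm
  have : Z.Normal := ⟨fun z hz g => by rw [← hc z hz, mul_inv_cancel_right]; exact hz⟩
  let π := QuotientGroup.mk' Z
  have hPmap : commutator (G ⧸ Z) = (commutator G).map π := by
    rw [commutator_def, commutator_def, Subgroup.map_commutator, Subgroup.map_top_of_surjective _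
      (QuotientGroup.mk'_surjective Z)]
  have hQ : Nat.card (G ⧸ Z) = 80 := by
    have := Subgroup.card_eq_card_quotient_mul_card_subgroup Z
    rw [hG, hZcard] at this
    omega
  have hker : ∀ g : G, π g ∈ commutator (G ⧸ Z) ↔ g ∈ commutator G := by
    intro g
    rw [hPmap]
    refine ⟨?_, Subgroup.mem_map_of_mem π⟩
    rintro ⟨d, hd, e⟩
    have := hZD (QuotientGroup.eq.1 e)
    simpa using mul_mem hd this
  have hP : Nat.card (commutator (G ⧸ Z)) = 16 := by
    have hcomap : (commutator (G ⧸ Z)).comap π = commutator G := by ext g; exact hker g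
    have h1 := Subgroup.index_comap_of_surjective (commutator (G ⧸ Z)) (QuotientGroup.mk'_surjective Z)
    rw [hcomap] at h1
    have h2 := Subgroup.card_mul_index (commutator G)
    have h3 := Subgroup.card_mul_index (commutator (G ⧸ Z))
    rw [hD, hG] at h2
    rw [hQ, ← h1] at h3
    nlinarith
  obtain ⟨hcomm, hexp, hw⟩ := quotient_facts hQ hP (π a) (fun h => haD ((hker a).1 h))
    (by rw [← map_pow, ha5, map_one])
  obtain ⟨x', hx'D, hx'Z⟩ : ∃ x ∈ commutator G, x ∉ Z := by
    by_contra hcon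
    push Not at hcon
    have := Subgroup.card_le_of_le (H := commutator G) (K := Z) hcon
    omega
  have hcjπ : ∀ x i, π (cj a x i) = cj (π a) (π x) i := fun x i => by simp [cj, map_mul, map_inv, map_pow]
  obtain ⟨e4', -⟩ := hw (π x') ((hker x').2 hx'D) (fun h => hx'Z ((QuotientGroup.eq_one_iff _).1 h))
  simp only [← hcjπ, ← map_mul] at e4'
  set ζ := (x' * cj a x' 1 * cj a x' 2 * cj a x' 3)⁻¹ * cj a x' 4 with hζ
  have hζZ : ζ ∈ Z := QuotientGroup.eq.1 e4'.symm
  set x := x' * ζ with hx
  have hxD : x ∈ commutator G := mul_mem hx'D (hZD hζZ)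
  have hxZ : x ∉ Z := fun h => hx'Z ((Subgroup.mul_mem_cancel_right Z hζZ).1 h)
  obtain ⟨-, hgenQ⟩ := hw (π x) ((hker x).2 hxD) (fun h => hxZ ((QuotientGroup.eq_one_iff _).1 h))
  have hcjx : ∀ i, cj a x i = cj a x' i * ζ := fun i => by
    simp only [cj, hx]
    rw [← mul_assoc, mul_assoc _ ζ, hc ζ hζZ, ← mul_assoc]
  have r4 : cj a x 4 = x * cj a x 1 * cj a x 2 * cj a x 3 := by
    rw [hcjx, hcjx, hcjx, hcjx, hx]
    have hcom := fun g => (hc ζ hζZ g).symm
    calc cj a x' 4 * ζ = x' * cj a x' 1 * cj a x' 2 * cj a x' 3 * (ζ * ζ) := by rw [hζ]; group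
      _ = x' * cj a x' 1 * cj a x' 2 * cj a x' 3 * ((ζ * ζ) * (ζ * ζ)) := by simp [hZsq ζ hζZ]
      _ = _ := by
        have push : ∀ v u : G, u * ζ * v = u * v * ζ := fun v u => by rw [mul_assoc u, hc ζ hζZ, ← mul_assoc]
        simp only [← mul_assoc, push (cj a x' 1), push (cj a x' 2), push (cj a x' 3)]
  have hcjD : ∀ i, cj a x i ∈ commutator G := fun i =>
    (inferInstance : (commutator G).Normal).conj_mem x hxD _
  have hz : ∀ i, (cj a x i * x)⁻¹ * (x * cj a x i) ∈ Z := fun i => by
    rw [← QuotientGroup.eq]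
    change π (cj a x i * x) = π (x * cj a x i)
    rw [map_mul, map_mul]
    exact hcomm _ ((hker _).2 (hcjD i)) _ ((hker _).2 hxD)
  have hsq : x * x ∈ Z := (QuotientGroup.eq_one_iff _).1 (hexp (π x) ((hker x).2 hxD))
  refine ⟨a, x, _, _, hc _ (hz 1), hc _ (hz 2), hZsq _ (hz 1), hZsq _ (hz 2), ha5, hc _ hsq, hZsq _ hsq,
    by rw [mul_inv_cancel_left], by rw [mul_inv_cancel_left], r4, ?_⟩
  set H := Subgroup.closure ({a, x} : Set G) with hH
  have hmap : H.map π = ⊤ := by rw [hH, MonoidHom.map_closure, Set.image_pair]; exact hgenQ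
  have hsup : ∀ g : G, ∃ h ∈ H, ∃ z ∈ Z, g = h * z := by
    intro g
    obtain ⟨h, hh, e⟩ := (hmap.ge (Subgroup.mem_top (π g)) : π g ∈ H.map π)
    exact ⟨h, hh, h⁻¹ * g, QuotientGroup.eq.1 e, by group⟩
  have hDH : commutator G ≤ H := by
    rw [commutator_def, Subgroup.commutator_le]
    intro g _ g' _
    obtain ⟨h, hh, z, hz', rfl⟩ := hsup g
    obtain ⟨h', hh', z', hz'', rfl⟩ := hsup g'
    have : ⁅h * z, h' * z'⁆ = ⁅h, h'⁆ := by
      simp only [commutatorElement_def, mul_inv_rev, mul_assoc]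
      rw [← mul_assoc z h', hc z hz', mul_assoc, ← mul_assoc z z', hc z hz' z', mul_assoc, ← mul_assoc z z⁻¹,
        mul_inv_cancel, one_mul, ← mul_assoc z' h⁻¹, hc z' hz'', mul_assoc, ← mul_assoc z' z'⁻¹, mul_inv_cancel,
        one_mul]
    rw [this, commutatorElement_def]
    exact mul_mem (mul_mem (mul_mem hh hh') (inv_mem hh)) (inv_mem hh')
  refine eq_top_iff.2 fun g _ => ?_
  obtain ⟨h, hh, z, hz', rfl⟩ := hsup g
  exact mul_mem hh (hDH (hZD hz'))

end Cfsg.Agent.Core.ThreeTwenty
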