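import Mathlib

/-!
# Groups `2^(2+4) : 5` by generators and normal forms
-/

set_option autoImplicit false
set_option linter.unusedSimpArgs false
set_option linter.unusedSectionVars false

namespace Cfsg.Agent.Core.ThreeTwenty

variable {G : Type*} [Group G]

/-- A conjugate. -/
def cj (a x : G) (i : ℕ) : G := a ^ i * x * (a ^ i)⁻¹

/-- An optional factor. -/
def pw (b : Bool) (g : G) : G := if b then g else 1

/-- Exponents. -/
abbrev E4 := Bool × Bool × Bool × Bool

/-- Central exponents. -/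
abbrev E2 := Bool × Bool

/-- The normal forms. -/
abbrev Code := Fin 5 × E2 × E4

/-- The defining data. -/
structure Data (a x z1 z2 : G) : Prop where
  c1 : ∀ g, z1 * g = g * z1
  c2 : ∀ g, z2 * g = g * z2
  s1 : z1 * z1 = 1
  s2 : z2 * z2 = 1
  a5 : a ^ 5 = 1
  sqc : ∀ g, x * x * g = g * (x * x)
  sq1 : x * x * (x * x) = 1
  r1 : x * cj a x 1 = cj a x 1 * x * z1
  r2 : x * cj a x 2 = cj a x 2 * x * z2
  r4 : cj a x 4 = x * cj a x 1 * cj a x 2 * cj a x 3
  gen : Subgroup.closure ({a, x} : Set G) = ⊤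

/-- The product of conjugates. -/
def P (a x : G) (e : E4) : G :=
  pw e.1 x * (pw e.2.1 (cj a x 1) * (pw e.2.2.1 (cj a x 2) * pw e.2.2.2 (cj a x 3)))

/-- The central product. -/
def W (z1 z2 : G) (z : E2) : G := pw z.1 z1 * pw z.2 z2

/-- The element of a code. -/
def φ (a x z1 z2 : G) (c : Code) : G := W z1 z2 c.2.1 * P a x c.2.2 * a ^ (c.1 : ℕ)

/-- Right multiplication by the zeroth conjugate. -/
def m0 : E2 × E4 → E2 × E4
  | ((u, v), (p, q, r, s)) => ((xor (xor u q) p, xor (xor (xor v r) s) p), (!p, q, r, s))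

/-- Right multiplication by the first conjugate. -/
def m1 : E2 × E4 → E2 × E4
  | ((u, v), (p, q, r, s)) => ((xor (xor u r) q, xor (xor v s) q), (p, !q, r, s))

/-- Right multiplication by the second conjugate. -/
def m2 : E2 × E4 → E2 × E4
  | ((u, v), (p, q, r, s)) => ((xor (xor u s) r, xor v r), (p, q, !r, s))

/-- Right multiplication by the third conjugate. -/
def m3 : E2 × E4 → E2 × E4
  | ((u, v), (p, q, r, s)) => ((xor u s, xor v s), (p, q, r, !s))

/-- Right multiplication by a conjugate. -/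
def mulCj : Fin 5 → E2 × E4 → E2 × E4 :=
  ![m0, m1, m2, m3, fun c => m3 (m2 (m1 (m0 c)))]

/-- Right multiplication by `a`. -/
def stepA (c : Code) : Code := (c.1 + 1, c.2)

/-- Right multiplication by `x`. -/
def stepX (c : Code) : Code := (c.1, mulCj c.1 c.2)

namespace Data

variable {a x z1 z2 : G} (h : Data a x z1 z2)
include h

theorem cj_mul (i : ℕ) (g k : G) : cj a (g * k) i = cj a g i * cj a k i := by
  rw [cj, cj, cj]; group

theorem cj_add (i j : ℕ) : cj a (cj a x j) i = cj a x (i + j) := by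
  rw [cj, cj, cj, pow_add]; group

theorem cj_five (i : ℕ) : cj a x (i + 5) = cj a x i := by
  rw [cj, cj, pow_add, h.a5, mul_one]

theorem cj_central {z : G} (hz : ∀ g, z * g = g * z) (i : ℕ) : cj a z i = z := by
  rw [cj, ← hz, mul_inv_cancel_right]

theorem cj_sq (i : ℕ) : cj a x i * cj a x i = x * x := by
  rw [← h.cj_mul, h.cj_central h.sqc]

theorem dist1 (i : ℕ) : cj a x (i + 1) * cj a x i = cj a x i * cj a x (i + 1) * z1 := by
  have e := congrArg (cj a · i) h.r1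
  simp only [h.cj_mul, h.cj_add, h.cj_central h.c1] at e
  rw [e, mul_assoc (_ * _) z1, h.s1, mul_one]

theorem dist2 (i : ℕ) : cj a x (i + 2) * cj a x i = cj a x i * cj a x (i + 2) * z2 := by
  have e := congrArg (cj a · i) h.r2
  simp only [h.cj_mul, h.cj_add, h.cj_central h.c2] at e
  rw [e, mul_assoc (_ * _) z2, h.s2, mul_one]

theorem dist3 : cj a x 3 * x = x * cj a x 3 * z2 := by
  have e := congrArg (cj a · 3) h.r2
  simp only [h.cj_mul, h.cj_add, h.cj_central h.c2, h.cj_five 0] at e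
  have h0 : cj a x 0 = x := by simp [cj]
  rwa [h0] at e

theorem rules :
    cj a x 1 * x = z1 * (x * cj a x 1) ∧
    cj a x 2 * x = z2 * (x * cj a x 2) ∧
    cj a x 3 * x = z2 * (x * cj a x 3) ∧
    cj a x 2 * cj a x 1 = z1 * (cj a x 1 * cj a x 2) ∧
    cj a x 3 * cj a x 1 = z2 * (cj a x 1 * cj a x 3) ∧
    cj a x 3 * cj a x 2 = z1 * (cj a x 2 * cj a x 3) := by
  have h0 : cj a x 0 = x := by simp [cj]
  refine ⟨?_, ?_, ?_, ?_, ?_, ?_⟩
  · have := h.dist1 0; rw [h0, zero_add] at this; rw [h.c1]; exact this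
  · have := h.dist2 0; rw [h0, zero_add] at this; rw [h.c2]; exact this
  · rw [h.c2]; exact h.dist3
  · rw [h.c1]; exact h.dist1 1
  · rw [h.c2]; exact h.dist2 1
  · rw [h.c1]; exact h.dist1 2

theorem sq : x * x = z1 * z2 := by
  obtain ⟨q10, q20, q30, q21, q31, q32⟩ := h.rules
  have e := h.cj_sq 4
  rw [h.r4] at e
  set x1 := cj a x 1 with hx1
  set x2 := cj a x 2 with hx2
  set x3 := cj a x 3 with hx3
  set s := x * x with hs
  have hx1s : x1 * x1 = s := h.cj_sq 1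
  have hx2s : x2 * x2 = s := h.cj_sq 2
  have hx3s : x3 * x3 = s := h.cj_sq 3
  have lz1 : ∀ g r : G, g * (z1 * r) = z1 * (g * r) := fun g r => by rw [← mul_assoc, ← h.c1, mul_assoc]
  have lz2 : ∀ g r : G, g * (z2 * r) = z2 * (g * r) := fun g r => by rw [← mul_assoc, ← h.c2, mul_assoc]
  have ls : ∀ g r : G, g * (s * r) = s * (g * r) := fun g r => by rw [← mul_assoc, ← h.sqc, mul_assoc]
  have ext2 : ∀ {p q r : G}, p * q = r → ∀ k, p * (q * k) = r * k := fun e k => by rw [← mul_assoc, e]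
  have hs' : x * x = s := hs.symm
  have l1 : ∀ r : G, z1 * (z1 * r) = r := fun r => by rw [← mul_assoc, h.s1, one_mul]
  have l1' : ∀ r : G, z2 * (z2 * r) = r := fun r => by rw [← mul_assoc, h.s2, one_mul]
  have l2 : ∀ r : G, z2 * (z1 * r) = z1 * (z2 * r) := fun r => lz1 z2 r
  have ls2 : ∀ r : G, s * (s * r) = r := fun r => by rw [← mul_assoc, h.sq1, one_mul]
  have lse : ∀ g : G, g * s = s * g := fun g => (h.sqc g).symm
  have key : x * x1 * x2 * x3 * (x * x1 * x2 * x3) = z1 * z2 := by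
    simp [mul_assoc, h.s1, h.s2, h.sq1, hs', hx1s, hx2s, hx3s, q10, q20, q30, q21, q31, q32,
      ext2 hs', ext2 hx1s, ext2 hx2s, ext2 hx3s, ext2 q10, ext2 q20, ext2 q30, ext2 q21, ext2 q31, ext2 q32,
      l1, l1', l2, ls2, lz1 x, lz1 x1, lz1 x2, lz1 x3, lz2 x, lz2 x1, lz2 x2, lz2 x3, ls x, ls x1, ls x2, ls x3,
      ls z1, ls z2, h.c2 z1,
      ← h.c1 x, ← h.c1 x1, ← h.c1 x2, ← h.c1 x3, ← h.c2 x, ← h.c2 x1, ← h.c2 x2, ← h.c2 x3,
      lse x, lse x1, lse x2, lse x3, lse z1, lse z2]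
  exact e.symm.trans key

theorem W_mul (z w : E2) : W z1 z2 z * W z1 z2 w = W z1 z2 (xor z.1 w.1, xor z.2 w.2) := by
  have l1 : ∀ r : G, z1 * (z1 * r) = r := fun r => by rw [← mul_assoc, h.s1, one_mul]
  have l2 : ∀ r : G, z2 * (z1 * r) = z1 * (z2 * r) := fun r => by rw [← mul_assoc, h.c2, mul_assoc]
  rcases z with ⟨_ | _, _ | _⟩ <;> rcases w with ⟨_ | _, _ | _⟩ <;>
    simp [W, pw, mul_assoc, h.s1, h.s2, h.c2 z1, l1, l2]

theorem P_mul : ∀ (c : E2 × E4),
    (W z1 z2 c.1 * P a x c.2 * x = W z1 z2 (m0 c).1 * P a x (m0 c).2) ∧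
    (W z1 z2 c.1 * P a x c.2 * cj a x 1 = W z1 z2 (m1 c).1 * P a x (m1 c).2) ∧
    (W z1 z2 c.1 * P a x c.2 * cj a x 2 = W z1 z2 (m2 c).1 * P a x (m2 c).2) ∧
    (W z1 z2 c.1 * P a x c.2 * cj a x 3 = W z1 z2 (m3 c).1 * P a x (m3 c).2) := by
  obtain ⟨q10, q20, q30, q21, q31, q32⟩ := h.rules
  have s1 := h.cj_sq 1
  have s2 := h.cj_sq 2
  have s3 := h.cj_sq 3
  rw [h.sq] at s1 s2 s3
  have s0 := h.sq
  set x1 := cj a x 1 with hx1
  set x2 := cj a x 2 with hx2
  set x3 := cj a x 3 with hx3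
  have ext2 : ∀ {p q r : G}, p * q = r → ∀ k, p * (q * k) = r * k := fun e k => by rw [← mul_assoc, e]
  have l1 : ∀ r : G, z1 * (z1 * r) = r := fun r => by rw [← mul_assoc, h.s1, one_mul]
  have l1' : ∀ r : G, z2 * (z2 * r) = r := fun r => by rw [← mul_assoc, h.s2, one_mul]
  have l2 : ∀ r : G, z2 * (z1 * r) = z1 * (z2 * r) := fun r => by rw [← mul_assoc, h.c2, mul_assoc]
  have a0 : ∀ r : G, x * (z1 * r) = z1 * (x * r) := fun r => by rw [← mul_assoc, ← h.c1, mul_assoc]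
  have a1 : ∀ r : G, x1 * (z1 * r) = z1 * (x1 * r) := fun r => by rw [← mul_assoc, ← h.c1, mul_assoc]
  have a2 : ∀ r : G, x2 * (z1 * r) = z1 * (x2 * r) := fun r => by rw [← mul_assoc, ← h.c1, mul_assoc]
  have a3 : ∀ r : G, x3 * (z1 * r) = z1 * (x3 * r) := fun r => by rw [← mul_assoc, ← h.c1, mul_assoc]
  have b0 : ∀ r : G, x * (z2 * r) = z2 * (x * r) := fun r => by rw [← mul_assoc, ← h.c2, mul_assoc]
  have b1 : ∀ r : G, x1 * (z2 * r) = z2 * (x1 * r) := fun r => by rw [← mul_assoc, ← h.c2, mul_assoc]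
  have b2 : ∀ r : G, x2 * (z2 * r) = z2 * (x2 * r) := fun r => by rw [← mul_assoc, ← h.c2, mul_assoc]
  have b3 : ∀ r : G, x3 * (z2 * r) = z2 * (x3 * r) := fun r => by rw [← mul_assoc, ← h.c2, mul_assoc]
  rintro ⟨⟨u, v⟩, p, q, r, s⟩
  have hW : ∀ (z : E2) (g : G), W z1 z2 (u, v) * (W z1 z2 z * g) = W z1 z2 (xor u z.1, xor v z.2) * g :=
    fun z g => by rw [← mul_assoc, h.W_mul]
  suffices H : (P a x (p, q, r, s) * x = W z1 z2 (xor q p, xor (xor r s) p) * P a x (!p, q, r, s)) ∧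
      (P a x (p, q, r, s) * x1 = W z1 z2 (xor r q, xor s q) * P a x (p, !q, r, s)) ∧
      (P a x (p, q, r, s) * x2 = W z1 z2 (xor s r, r) * P a x (p, q, !r, s)) ∧
      (P a x (p, q, r, s) * x3 = W z1 z2 (s, s) * P a x (p, q, r, !s)) by
    obtain ⟨H0, H1, H2, H3⟩ := H
    refine ⟨?_, ?_, ?_, ?_⟩
    · rw [mul_assoc, H0, hW]; simp [m0, Bool.xor_assoc]
    · rw [mul_assoc, H1, hW]; simp [m1, Bool.xor_assoc]
    · rw [mul_assoc, H2, hW]; simp [m2, Bool.xor_assoc]
    · rw [mul_assoc, H3, hW]; simp [m3]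
  rcases p with _ | _ <;> rcases q with _ | _ <;> rcases r with _ | _ <;> rcases s with _ | _ <;>
    simp [P, W, pw, ← hx1, ← hx2, ← hx3, mul_assoc, h.s1, h.s2, s0, s1, s2, s3, q10, q20, q30, q21, q31, q32,
      ext2 s0, ext2 s1, ext2 s2, ext2 s3, ext2 q10, ext2 q20, ext2 q30, ext2 q21, ext2 q31, ext2 q32,
      l1, l1', l2, a0, a1, a2, a3, b0, b1, b2, b3, h.c2 z1,
      ← h.c1 x, ← h.c1 x1, ← h.c1 x2, ← h.c1 x3, ← h.c2 x, ← h.c2 x1, ← h.c2 x2, ← h.c2 x3]

theorem φ_zero : φ a x z1 z2 (0, (false, false), (false, false, false, false)) = 1 := by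
  simp [φ, W, P, pw]

theorem φ_stepA (c : Code) : φ a x z1 z2 c * a = φ a x z1 z2 (stepA c) := by
  simp only [φ, stepA, mul_assoc]
  congr 2
  rw [← pow_succ, Fin.val_add, pow_eq_pow_mod _ h.a5]
  rfl

theorem φ_stepX (c : Code) : φ a x z1 z2 c * x = φ a x z1 z2 (stepX c) := by
  obtain ⟨i, c⟩ := c
  have hpush : a ^ (i : ℕ) * x = cj a x i * a ^ (i : ℕ) := by rw [cj]; group
  simp only [φ, stepX]
  rw [mul_assoc, hpush, ← mul_assoc]
  congr 1
  have h0 : cj a x 0 = x := by simp [cj]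
  fin_cases i
  · exact h0.symm ▸ (h.P_mul c).1
  · exact (h.P_mul c).2.1
  · exact (h.P_mul c).2.2.1
  · exact (h.P_mul c).2.2.2
  · change W z1 z2 c.1 * P a x c.2 * cj a x 4 = W z1 z2 (m3 (m2 (m1 (m0 c)))).1 * P a x (m3 (m2 (m1 (m0 c)))).2
    rw [h.r4]
    simp only [← mul_assoc]
    rw [(h.P_mul c).1, (h.P_mul (m0 c)).2.1, (h.P_mul (m1 (m0 c))).2.2.1, (h.P_mul (m2 (m1 (m0 c)))).2.2.2]

theorem induction_right [Finite G] {p : G → Prop} (one : p 1) (ma : ∀ g, p g → p (g * a))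
    (mx : ∀ g, p g → p (g * x)) (g : G) : p g := by
  have hg : g ∈ Submonoid.closure ({a, x} : Set G) := by
    rw [← Subgroup.closure_toSubmonoid_of_finite, h.gen]; trivial
  induction hg using Submonoid.closure_induction_right with
  | one => exact one
  | mul_right k _ y hy ih =>
    simp only [Set.mem_insert_iff, Set.mem_singleton_iff] at hy
    rcases hy with rfl | rfl
    · exact ma k ih
    · exact mx k ih

theorem φ_surjective [Finite G] : Function.Surjective (φ a x z1 z2) := fun g =>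
  h.induction_right (p := fun g => ∃ c, φ a x z1 z2 c = g) ⟨_, h.φ_zero⟩
    (fun g ⟨c, hc⟩ => ⟨stepA c, by rw [← h.φ_stepA, hc]⟩)
    (fun g ⟨c, hc⟩ => ⟨stepX c, by rw [← h.φ_stepX, hc]⟩) g

theorem card_le [Finite G] : Nat.card G ≤ 320 := by
  refine le_trans (Nat.card_le_card_of_surjective _ h.φ_surjective) (le_of_eq ?_)
  simp [Nat.card_eq_fintype_card]

end Data

/-- Two such groups of order 320 are isomorphic. -/
theorem iso [Finite G] {H : Type*} [Group H] [Finite H] {a x z1 z2 : G} {b y w1 w2 : H}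
    (h : Data a x z1 z2) (k : Data b y w1 w2) (hG : Nat.card G = 320) (hH : Nat.card H = 320) :
    Nonempty (G ≃* H) := by
  have hc : Nat.card Code = 320 := by simp [Nat.card_eq_fintype_card]
  let eG : Code ≃ G := Equiv.ofBijective _ ((Nat.bijective_iff_surjective_and_card _).2
    ⟨h.φ_surjective, hc.trans hG.symm⟩)
  let eH : Code ≃ H := Equiv.ofBijective _ ((Nat.bijective_iff_surjective_and_card _).2
    ⟨k.φ_surjective, hc.trans hH.symm⟩)
  let e := eG.symm.trans eH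
  have ha : ∀ g, e (g * a) = e g * b := fun g => by
    obtain ⟨c, rfl⟩ := eG.surjective g
    have h1 : eG c * a = eG (stepA c) := h.φ_stepA c
    simp only [e, h1, Equiv.trans_apply, Equiv.symm_apply_apply]
    exact (k.φ_stepA c).symm
  have hx : ∀ g, e (g * x) = e g * y := fun g => by
    obtain ⟨c, rfl⟩ := eG.surjective g
    have h1 : eG c * x = eG (stepX c) := h.φ_stepX c
    simp only [e, h1, Equiv.trans_apply, Equiv.symm_apply_apply]
    exact (k.φ_stepX c).symm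
  have h1 : e 1 = 1 := by
    have h1 : eG (0, (false, false), (false, false, false, false)) = 1 := h.φ_zero
    simp only [e, ← h1, Equiv.trans_apply, Equiv.symm_apply_apply]
    exact k.φ_zero
  refine ⟨{ e with map_mul' := fun g g' => ?_ }⟩
  change e (g * g') = e g * e g'
  induction g' using h.induction_right with
  | one => rw [mul_one, h1, mul_one]
  | ma l ih => rw [← mul_assoc, ha, ha, ih, mul_assoc]
  | mx l ih => rw [← mul_assoc, hx, hx, ih, mul_assoc]

end Cfsg.Agent.Core.ThreeTwenty
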